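import Cfsg.Agent.Ree.Prd4

set_option autoImplicit false
set_option maxHeartbeats 1000000
set_option linter.unusedSectionVars false

/-!
A bound for elements of a self-centralizing abelian trivial intersection subgroup of relative index six.
-/

namespace Cfsg.Agent.Ree

open scoped ComplexConjugate BigOperators
open Cfsg Cfsg.Agent.CharBase Cfsg.Agent.Char

universe u

namespace Exc

open H74 H74.TIData

variable {G : Type u} [Group G] {D : TIData G}
variable [Fintype G] [Fintype D.C] [Fintype D.N] (hF : Full D)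

include hF in
theorem bound (hne : ∃ θ : IrrCharacter D.C, θ ≠ oneIrr D.C)
    (hcent : ∀ y : D.C, y ≠ 1 → Nat.card (Subgroup.centralizer ({(y : G)} : Set G)) = Nat.card D.C)
    [Fintype (IrrCharacter G)] [DecidableEq (IrrCharacter G)] (he : D.e = 6) {D0 : ℝ}
    (hD : ∀ χ : IrrCharacter G, χ ≠ oneIrr G → D0 ≤ rdeg χ) (h37 : 37 ≤ Nat.card D.C) (h43 : Nat.card D.C ≠ 43) (h703 : 703 ≤ D0)
    (hbig : 6 * ((Nat.card D.C : ℝ) - 6) + 10 * ((Nat.card D.C : ℝ) - 1) < D0)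
    (hnum : Nat.card D.C = 37 → ∀ d : ℕ, 703 ≤ d → d < 1107 → d ∣ Nat.card G → ¬ (d % 37 = 7 ∨ d % 37 = 30))
    (x : D.C) (hx : x ≠ 1) :
    ∑ χ ∈ Finset.univ.erase (oneIrr G), ‖(χ : G → ℂ) x‖ ^ 2 * (rT D.C χ / rdeg χ) < Nat.card D.C := by
  obtain ⟨E, ε, ce, c, a, d, hε, h1, h2, h3, h4, h5, h6, h7⟩ := main hF hne hcent
  obtain ⟨M, hM⟩ : ∃ M, M = Nat.card D.C := ⟨_, rfl⟩
  rw [he] at h3 h5 h6
  rw [← hM] at h3 h4 h5 h37 h43 hbig hnum ⊢
  have hD0 : 0 < D0 := by linarith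
  have hn6 : 6 ≤ E.card := by omega
  have hone := h7 (by omega)
  have hc1 : c (oneIrr G) = 1 := by
    have := h1 _ hone x hx
    rw [oneIrr_apply] at this
    exact_mod_cast this.symm
  -- separate the principal character
  obtain ⟨A, hA⟩ : ∃ A : ℤ, A = ∑ χ ∈ (Finset.univ.erase (oneIrr G)).filter (· ∉ E), (c χ) ^ 2 := ⟨_, rfl⟩
  have hA0 : 0 ≤ A := by rw [hA]; exact Finset.sum_nonneg fun _ _ => sq_nonneg _
  have hfil : Finset.univ.filter (fun χ : IrrCharacter G => χ ∉ E) = insert (oneIrr G) ((Finset.univ.erase (oneIrr G)).filter (· ∉ E)) := by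
    ext χ
    simp only [Finset.mem_filter, Finset.mem_univ, true_and, Finset.mem_insert, Finset.mem_erase, and_true]
    constructor
    · intro h
      by_cases h' : χ = oneIrr G
      · exact Or.inl h'
      · exact Or.inr ⟨h', h⟩
    · rintro (rfl | h)
      · exact hone
      · exact h.2
  have hsumA : ∑ χ ∈ Finset.univ.filter (· ∉ E), (c χ) ^ 2 = 1 + A := by
    rw [hfil, Finset.sum_insert (by simp), hc1, hA]
    norm_num
  rw [hsumA] at h6
  have hc : ∀ χ ∈ (Finset.univ.erase (oneIrr G)).filter (· ∉ E), (c χ) ^ 2 ≤ A := by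
    intro χ hχ
    rw [hA]
    exact Finset.single_le_sum (f := fun χ => (c χ) ^ 2) (fun _ _ => sq_nonneg _) hχ
  have hnx : ∀ χ ∉ E, ‖(χ : G → ℂ) x‖ ^ 2 = (c χ : ℝ) ^ 2 := by
    intro χ hχ
    rw [h1 χ hχ x hx, ← Complex.ofReal_intCast, Complex.norm_real, Real.norm_eq_abs, sq_abs]
  have hall : ∑ χ ∈ Finset.univ.erase (oneIrr G), ‖(χ : G → ℂ) x‖ ^ 2 = M - 1 := by
    rw [sum_norm_sq_ne, hcent x hx, hM]
  have hEE : (Finset.univ.erase (oneIrr G)).filter (fun χ => ¬ χ ∉ E) = E := by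
    ext χ
    simp only [Finset.mem_filter, Finset.mem_erase, Finset.mem_univ, and_true, not_not]
    constructor
    · exact fun h => h.2
    · intro h
      exact ⟨fun h' => hone (h' ▸ h), h⟩
  have hsE : ∑ χ ∈ E, ‖(χ : G → ℂ) x‖ ^ 2 = M - 1 - A := by
    rw [← Finset.sum_filter_add_sum_filter_not _ (· ∉ E), hEE] at hall
    have h8 : ∑ χ ∈ (Finset.univ.erase (oneIrr G)).filter (· ∉ E), ‖(χ : G → ℂ) x‖ ^ 2 = A := by
      rw [Finset.sum_congr rfl (fun χ hχ => hnx χ (Finset.mem_filter.1 hχ).2), hA]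
      push_cast
      rfl
    linarith
  -- reduction
  have hterm : ∀ χ : IrrCharacter G, ‖(χ : G → ℂ) x‖ ^ 2 * (rT D.C χ / rdeg χ) =
      ‖(χ : G → ℂ) x‖ ^ 2 + ‖(χ : G → ℂ) x‖ ^ 2 * (((M - 1) * c χ - ε * 6 * (if χ ∈ E then 1 else 0)) / rdeg χ) := by
    intro χ
    have := rdeg_pos χ
    rw [h4, h3]
    field_simp
    push_cast
    ring
  rw [Finset.sum_congr rfl (fun χ _ => hterm χ), Finset.sum_add_distrib, hall]
  suffices hS : ∑ χ ∈ Finset.univ.erase (oneIrr G), ‖(χ : G → ℂ) x‖ ^ 2 * (((M - 1) * c χ - ε * 6 * (if χ ∈ E then 1 else 0)) / rdeg χ) < 1 by linarith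
  rw [← Finset.sum_filter_add_sum_filter_not _ (· ∉ E), hEE]
  have hM1 : (36 : ℝ) ≤ (M : ℝ) - 1 := by
    have : (37 : ℝ) ≤ M := by exact_mod_cast h37
    linarith
  -- the nonexceptional part
  have hnon : ∀ k : ℤ, 0 ≤ k → (∀ z : ℤ, z ^ 2 ≤ A → z ≤ k) →
      ∑ χ ∈ (Finset.univ.erase (oneIrr G)).filter (· ∉ E), ‖(χ : G → ℂ) x‖ ^ 2 * (((M - 1) * c χ - ε * 6 * (if χ ∈ E then 1 else 0)) / rdeg χ) ≤ k * A * (M - 1) / D0 := by
    intro k hk hz
    have : ∀ χ ∈ (Finset.univ.erase (oneIrr G)).filter (· ∉ E), ‖(χ : G → ℂ) x‖ ^ 2 * (((M - 1) * c χ - ε * 6 * (if χ ∈ E then 1 else 0)) / rdeg χ) ≤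
        (c χ : ℝ) ^ 2 * (k * (M - 1) / D0) := by
      intro χ hχ
      have hχE := (Finset.mem_filter.1 hχ).2
      have hχ1 := Finset.ne_of_mem_erase (Finset.mem_filter.1 hχ).1
      rw [if_neg hχE, mul_zero, sub_zero, hnx χ hχE]
      apply mul_le_mul_of_nonneg_left _ (sq_nonneg _)
      have hck : (c χ : ℝ) ≤ k := by exact_mod_cast hz _ (hc χ hχ)
      have hk' : (0 : ℝ) ≤ k := by exact_mod_cast hk
      have hdχ := hD χ hχ1
      have hd0 := rdeg_pos χ
      rw [div_le_div_iff₀ hd0 hD0]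
      have e1 : ((M : ℝ) - 1) * c χ * D0 ≤ ((M : ℝ) - 1) * k * D0 := by
        apply mul_le_mul_of_nonneg_right _ hD0.le
        exact mul_le_mul_of_nonneg_left hck (by linarith)
      have e2 : ((M : ℝ) - 1) * k * D0 ≤ ((M : ℝ) - 1) * k * rdeg χ := mul_le_mul_of_nonneg_left hdχ (mul_nonneg (by linarith) hk')
      linarith
    refine (Finset.sum_le_sum this).trans (le_of_eq ?_)
    rw [← Finset.sum_mul]
    have h8 : ∑ χ ∈ (Finset.univ.erase (oneIrr G)).filter (· ∉ E), (c χ : ℝ) ^ 2 = A := by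
      rw [hA]; push_cast; rfl
    rw [h8]
    ring
  have hEne : E.Nonempty := Finset.card_pos.1 (by omega)
  have hdE : D0 ≤ d := by
    obtain ⟨χ, hχ⟩ := hEne
    rw [← (h2 χ hχ).2]
    exact hD χ (fun h => hone (h ▸ hχ))
  have hexc : ∀ k : ℝ, ((M : ℝ) - 1) * ce - ε * 6 ≤ k →
      ∑ χ ∈ E, ‖(χ : G → ℂ) x‖ ^ 2 * (((M - 1) * c χ - ε * 6 * (if χ ∈ E then 1 else 0)) / rdeg χ) ≤ (M - 1 - A) * (k / d) := by
    intro k hk
    have : ∀ χ ∈ E, ‖(χ : G → ℂ) x‖ ^ 2 * (((M - 1) * c χ - ε * 6 * (if χ ∈ E then 1 else 0)) / rdeg χ) ≤ ‖(χ : G → ℂ) x‖ ^ 2 * (k / d) := by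
      intro χ hχ
      rw [if_pos hχ, mul_one, (h2 χ hχ).1, (h2 χ hχ).2]
      apply mul_le_mul_of_nonneg_left _ (sq_nonneg _)
      exact div_le_div_of_nonneg_right hk (by linarith)
    refine (Finset.sum_le_sum this).trans (le_of_eq ?_)
    rw [← Finset.sum_mul, hsE]
  have hεb : (-1 : ℝ) ≤ ε ∧ (ε : ℝ) ≤ 1 := by rcases hε with h | h <;> rw [h] <;> norm_num
  by_cases hce : ce = 0
  · rw [hce] at h6 hexc
    have hA5 : A = 5 := by push_cast at h6; linarith
    have e1 := hnon 2 (by norm_num) (fun z hz => by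
      rw [hA5] at hz
      nlinarith)
    have e2 := hexc 6 (by push_cast; linarith [hεb.1])
    rw [hA5] at e1 e2
    push_cast at e1 e2
    have e3 : ((M : ℝ) - 1 - 5) * (6 / d) ≤ (M - 1 - 5) * (6 / D0) := by
      apply mul_le_mul_of_nonneg_left _ (by linarith)
      exact div_le_div_of_nonneg_left (by norm_num) hD0 hdE
    have e4 : (2 * 5 * ((M : ℝ) - 1) / D0) + (M - 1 - 5) * (6 / D0) = (6 * ((M : ℝ) - 6) + 10 * (M - 1)) / D0 := by ring
    have e5 : (6 * ((M : ℝ) - 6) + 10 * (M - 1)) / D0 < 1 := by rw [div_lt_one hD0]; exact hbig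
    linarith
  · -- the exceptional case
    have hn6' : (6 : ℤ) ≤ E.card := by exact_mod_cast hn6
    obtain ⟨δ, hδ⟩ : ∃ δ, δ = ε * ce := ⟨_, rfl⟩
    have hεε : ε * ε = 1 := by rcases hε with h | h <;> rw [h] <;> norm_num
    have hce2 : ce ^ 2 = δ ^ 2 := by rw [hδ]; linear_combination (-ce ^ 2) * hεε
    have hδ0 : δ ≠ 0 := by
      rw [hδ]
      refine mul_ne_zero ?_ hce
      rcases hε with h | h <;> rw [h] <;> norm_num
    have h8 : 1 + A + E.card * δ ^ 2 - 2 * δ = 6 := by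
      have : (1 : ℤ) + A + E.card * ce ^ 2 - 2 * ε * ce = 6 := by exact_mod_cast h6
      rw [← hce2, hδ]
      linear_combination this
    have h9 : (E.card : ℤ) * δ ^ 2 ≤ 5 + 2 * δ := by linarith
    have h10 : δ = 1 := by
      have h11 : 6 * δ ^ 2 ≤ 5 + 2 * δ := by
        have : (6 : ℤ) * δ ^ 2 ≤ E.card * δ ^ 2 := mul_le_mul_of_nonneg_right hn6' (sq_nonneg _)
        linarith
      have h12 : δ ≤ 1 := by nlinarith
      have h13 : -1 < δ := by nlinarith
      omega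
    rw [h10] at h8
    have hEc : E.card = 6 := by
      have : (E.card : ℤ) ≤ 7 := by linarith
      have h14 : E.card ≤ 7 := by exact_mod_cast this
      omega
    have hM37 : M = 37 := by rw [hEc] at h5; omega
    rw [hEc] at h8
    have hA1 : A = 1 := by push_cast at h8; linarith
    have hceε : ce = ε := by
      have : ε * ce = 1 := by rw [← hδ, h10]
      linear_combination ε * this - ce * hεε
    -- the degree
    obtain ⟨χ, hχ⟩ := hEne
    obtain ⟨dn, hdn0, hdn, hdn'⟩ := rdeg_spec χ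
    have hdd : d = dn := by rw [← (h2 χ hχ).2, hdn]
    have hdvd : dn ∣ Nat.card G := degree_dvd_card χ.2 hdn'
    have h15 := h3 χ
    rw [if_pos hχ, (h2 χ hχ).1, hceε, hdn, hM37] at h15
    have h16 : (37 : ℤ) * a χ = dn + 30 * ε := by
      have : (37 : ℝ) * a χ = dn + 30 * ε := by
        push_cast at h15
        linear_combination h15
      exact_mod_cast this
    have hdn703 : 703 ≤ dn := by
      have : (703 : ℝ) ≤ dn := by rw [← hdd]; linarith
      exact_mod_cast this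
    have h17 : 1107 ≤ dn := by
      by_contra hlt
      apply hnum hM37 dn hdn703 (by omega) hdvd
      rcases hε with h | h <;> rw [h] at h16 <;> omega
    have hd1107 : (1107 : ℝ) ≤ d := by rw [hdd]; exact_mod_cast h17
    have e1 := hnon 1 (by norm_num) (fun z hz => by
      rw [hA1] at hz
      nlinarith)
    have e2 := hexc 30 (by
      rw [hceε, hM37]
      push_cast
      linarith [hεb.2])
    rw [hA1, hM37] at e1 e2
    push_cast at e1 e2
    have e3 : ((37 : ℝ) - 1 - 1) * (30 / d) ≤ 35 * (30 / 1107) := by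
      have : (30 : ℝ) / d ≤ 30 / 1107 := div_le_div_of_nonneg_left (by norm_num) (by norm_num) hd1107
      linarith
    have e4 : (1 : ℝ) * 1 * (37 - 1) / D0 ≤ 36 / 703 := by
      have : (36 : ℝ) / D0 ≤ 36 / 703 := div_le_div_of_nonneg_left (by norm_num) (by norm_num) h703
      have e : (1 : ℝ) * 1 * (37 - 1) / D0 = 36 / D0 := by ring
      rw [e]; exact this
    have e5 : (35 : ℝ) * (30 / 1107) + 36 / 703 < 1 := by norm_num
    rw [hM37]
    push_cast
    linarith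

end Exc

end Cfsg.Agent.Ree
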