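import Cfsg.Agent.Ree.Prd5
import Cfsg.Agent.Ree.Deg

set_option autoImplicit false
set_option maxHeartbeats 1000000
set_option linter.unusedSectionVars false

/-!
Products of two conjugates of a regular semisimple element of the Ree groups: assembly.
-/

namespace Cfsg.Agent.Ree

open scoped ComplexConjugate BigOperators
open Cfsg Cfsg.Agent.CharBase

theorem PT.of_isConj {G : Type*} [Group G] {x y g : G} (h : IsConj x y) (hp : PT y g) : PT x g := by
  obtain ⟨c, rfl⟩ := isConj_iff.1 h
  obtain ⟨u, v, rfl⟩ := hp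
  exact ⟨u * c, v * c, by group⟩

namespace RS

variable {K : Type*} [Field K] {τ : Tits K} {R : Type*} [Group R] (S : RS τ R)
variable [Fintype K] {m : ℕ} (hK : Fintype.card K = 3 ^ (2 * m + 1))

include S hK in
/-- the degrees of the nontrivial irreducible characters -/
theorem rdeg_ge [Finite R] (hq : 3 < Fintype.card K) (χ : IrrCharacter R) (hχ : χ ≠ oneIrr R) :
    (Fintype.card K : ℝ) ^ 2 - Fintype.card K + 1 ≤ rdeg χ := by
  obtain ⟨k, ρ, hρ, h⟩ := χ.2
  obtain ⟨d, hd0, hd, hd'⟩ := rdeg_spec χ
  have hk : d = k := by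
    rw [← h, Representation.char_one] at hd'
    simp at hd'
    exact_mod_cast hd'.symm
  subst hk
  have h2 : 2 ≤ d := by
    by_contra hlt
    have hd1 : d = 1 := by omega
    subst hd1
    apply hχ
    apply Subtype.ext
    funext g
    rw [oneIrr_apply, ← h]
    have hdet : ∀ g : R, LinearMap.det (ρ g) = 1 := by
      let f : R →* ℂˣ := MonoidHom.toHomUnits ((LinearMap.det : ((Fin 1 → ℂ) →ₗ[ℂ] (Fin 1 → ℂ)) →* ℂ).comp ρ)
      have h3 : commutator R ≤ f.ker := Abelianization.commutator_subset_ker f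
      rw [S.commutator_eq_top hq, top_le_iff] at h3
      intro g
      have h4 : g ∈ f.ker := by rw [h3]; trivial
      have h5 := congrArg Units.val (MonoidHom.mem_ker.1 h4)
      exact h5
    have h6 := hdet g
    rw [Representation.character]
    rw [← LinearMap.det_toMatrix (Pi.basisFun ℂ (Fin 1)), Matrix.det_fin_one] at h6
    rw [LinearMap.trace_eq_matrix_trace ℂ (Pi.basisFun ℂ (Fin 1)), Matrix.trace_fin_one, h6]
  have h3 := S.min_deg (ρ := ρ) hK hq hρ (by simpa using h2)
  rw [Module.finrank_fin_fun] at h3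
  rw [hd]
  have hq1 : Fintype.card K ≤ Fintype.card K ^ 2 := Nat.le_self_pow (by norm_num) _
  have h4 : ((Fintype.card K ^ 2 - Fintype.card K + 1 : ℕ) : ℝ) ≤ (d : ℝ) := by exact_mod_cast h3
  rw [Nat.cast_add, Nat.cast_sub hq1, Nat.cast_pow, Nat.cast_one] at h4
  exact h4

/-- centralizers of elements of order nine -/
lemma cent_nine {T U W : K} (hT : T ≠ 0) : Nat.card (Subgroup.centralizer {S.x T U W}) ≤ 3 * Fintype.card K := by
  classical
  let F : K → K := fun T' => (T' * U - τ.φ T' * T * T' + τ.φ T' * T ^ 2 + τ.φ T * T' * T - τ.φ T * T' ^ 2) / T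
  let s : Finset (K × K) := ({0, T, -T} : Finset K) ×ˢ (Finset.univ : Finset K)
  have hsub : ((Subgroup.centralizer {S.x T U W} : Subgroup R) : Set R) ⊆ (fun p : K × K => S.x p.1 (F p.1) p.2) '' (s : Set (K × K)) := by
    intro b hb
    have hb' : b ∈ Subgroup.centralizer {S.x T U W} := hb
    have hbB : b ∈ S.B := S.centralizer_le (S.x_mem_U T U W) (fun h => hT (S.x_eq_one h).1) hb'
    obtain ⟨T', U', W', κ, rfl⟩ := S.mem_B.1 hbB
    rw [Subgroup.mem_centralizer_singleton_iff] at hb'
    have e1 : S.x T' U' W' * S.h κ * S.x T U W = S.x T' U' W' * S.x (κ * T) (κ * τ.φ κ * U) (κ ^ 2 * τ.φ κ * W) * S.h κ := by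
      rw [mul_assoc (S.x T' U' W'), h_mul_x, ← mul_assoc (S.x T' U' W')]
    rw [e1, x_mul, ← mul_assoc (S.x T U W), x_mul] at hb'
    obtain ⟨h1, h2, h3, -⟩ := S.xh_inj hb'
    have hκ : (κ : K) = 1 := by
      have : ((κ : K) - 1) * T = 0 := by linear_combination h1
      rcases mul_eq_zero.1 this with h | h
      · linear_combination h
      · exact absurd h hT
    have hκ' : κ = 1 := Units.ext hκ
    subst hκ'
    simp only [Units.val_one, map_one, one_mul, mul_one, one_pow] at h2 h3
    have h4 : T' * τ.φ T = T * τ.φ T' := by linear_combination -h2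
    have hφT : τ.φ T ≠ 0 := φ_ne_zero hT
    refine ⟨(T', W'), ?_, ?_⟩
    · simp only [s, Finset.coe_product, Set.mem_prod, Finset.mem_coe, Finset.mem_univ, and_true, Finset.mem_insert, Finset.mem_singleton]
      have h5 : τ.φ (T' / T) = T' / T := by
        rw [map_div₀, div_eq_div_iff hφT hT]
        linear_combination -h4
      have h6 := τ.hφ (T' / T)
      rw [h5, h5] at h6
      have h7 : (T' / T) * ((T' / T - 1) * (T' / T + 1)) = 0 := by linear_combination -h6
      rcases mul_eq_zero.1 h7 with h | h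
      · left
        rw [div_eq_zero_iff] at h
        tauto
      · rcases mul_eq_zero.1 h with h | h
        · right; left
          have : T' / T = 1 := by linear_combination h
          rw [div_eq_iff hT] at this
          rw [this, one_mul]
        · right; right
          have : T' / T = -1 := by linear_combination h
          rw [div_eq_iff hT] at this
          rw [this]; ring
    · simp only [map_one, mul_one]
      congr 1
      simp only [F]
      rw [div_eq_iff hT]
      linear_combination h3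
  have h1 := Set.ncard_le_ncard hsub (Set.toFinite _)
  have h2 := Set.ncard_image_le (f := fun p : K × K => S.x p.1 (F p.1) p.2) (s := (s : Set (K × K))) (Set.toFinite _)
  have h3 : (s : Set (K × K)).ncard ≤ 3 * Fintype.card K := by
    rw [Set.ncard_coe_finset, Finset.card_product, Finset.card_univ]
    exact Nat.mul_le_mul_right _ Finset.card_le_three
  exact (h1.trans h2).trans h3

/-- centralizers of elements of order six -/
lemma cent_six {U : K} (hU : U ≠ 0) : Nat.card (Subgroup.centralizer {S.x 0 U 0 * S.h (-1)}) ≤ 2 * Fintype.card K := by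
  classical
  let s : Finset (K × Kˣ) := (Finset.univ : Finset K) ×ˢ ({1, -1} : Finset Kˣ)
  have hsub : ((Subgroup.centralizer {S.x 0 U 0 * S.h (-1)} : Subgroup R) : Set R) ⊆ (fun p : K × Kˣ => S.x 0 p.1 0 * S.h p.2) '' (s : Set (K × Kˣ)) := by
    intro b hb
    have hb' := Subgroup.mem_centralizer_singleton_iff.1 (show b ∈ Subgroup.centralizer {S.x 0 U 0 * S.h (-1)} from hb)
    have hcomm : S.x 0 U 0 * S.h (-1) = S.t * S.x 0 U 0 := (S.t_comm_x0 U).symm
    have hb1 : Commute b (S.t * S.x 0 U 0) := by rw [← hcomm]; exact hb'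
    have hbt : Commute b S.t := by
      have := hb1.pow_right 3
      rwa [tx_cube] at this
    have hbx : Commute b (S.x 0 U 0) := by
      have := hb1.pow_right 4
      rwa [tx_four] at this
    have hbB : b ∈ S.B := S.centralizer_le (S.x_mem_U 0 U 0) (fun h => hU (S.x_eq_one h).2.1) (Subgroup.mem_centralizer_singleton_iff.2 hbx.eq)
    obtain ⟨U', κ, rfl⟩ := S.mem_BT.1 ⟨hbB, Subgroup.mem_centralizer_singleton_iff.2 hbt.eq⟩
    refine ⟨(U', κ), ?_, rfl⟩
    simp only [s, Finset.coe_product, Set.mem_prod, Finset.mem_coe, Finset.mem_univ, true_and, Finset.mem_insert, Finset.mem_singleton]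
    by_contra hκ
    push Not at hκ
    have h2 : Commute (S.h κ) (S.x 0 U 0) := by
      have h3 : Commute (S.x 0 U' 0) (S.x 0 U 0) := by
        change S.x 0 U' 0 * S.x 0 U 0 = S.x 0 U 0 * S.x 0 U' 0
        rw [x_mul, x_mul]
        simp [add_comm]
      have h4 := (h3.inv_left).mul_left hbx
      rwa [inv_mul_cancel_left] at h4
    have h5 := S.fix_of' hκ.1 hκ.2 h2.eq
    exact hU (S.x_eq_one h5).2.1
  have h1 := Set.ncard_le_ncard hsub (Set.toFinite _)
  have h2 := Set.ncard_image_le (f := fun p : K × Kˣ => S.x 0 p.1 0 * S.h p.2) (s := (s : Set (K × Kˣ))) (Set.toFinite _)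
  have h3 : (s : Set (K × Kˣ)).ncard ≤ 2 * Fintype.card K := by
    rw [Set.ncard_coe_finset, Finset.card_product, Finset.card_univ, mul_comm]
    exact Nat.mul_le_mul_right _ Finset.card_le_two
  exact (h1.trans h2).trans h3

include S hK in
lemma cent_of_nine (hq : 3 < Fintype.card K) {g : R} (hg : orderOf g = 9) : Nat.card (Subgroup.centralizer {g}) ≤ 3 * Fintype.card K := by
  have hfin := S.finite_R
  obtain ⟨r, hr⟩ := S.conj_U hK (g := g) (k := 2) (by rw [hg]; norm_num)
  obtain ⟨T, U, W, h⟩ := S.mem_U.1 hr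
  rw [← card_cent_conj r g, h]
  apply S.cent_nine
  rw [← S.orderOf_eq_nine (T := T) (U := U) (W := W), ← h, ord_conj, hg]

include S hK in
lemma cent_of_six (hq : 3 < Fintype.card K) {g : R} (hg : orderOf g = 6) : Nat.card (Subgroup.centralizer {g}) ≤ 2 * Fintype.card K := by
  have hfin := S.finite_R
  have h3 : g ^ 3 ≠ 1 := by
    intro h
    have := orderOf_dvd_of_pow_eq_one h
    rw [hg] at this
    norm_num at this
  have h32 : g ^ 3 * g ^ 3 = 1 := by
    have h6 : g ^ 6 = 1 := by rw [← hg]; exact pow_orderOf_eq_one g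
    rw [← pow_add]
    exact h6
  obtain ⟨r, hr⟩ := S.conj_t hK h3 h32
  have hr' : (r * g * r⁻¹) ^ 3 = S.t := by rw [conj_pow]; exact hr
  have hcomm : S.t * (r * g * r⁻¹) = (r * g * r⁻¹) * S.t := by
    rw [← hr', ← pow_succ, ← pow_succ']
  obtain ⟨u, hu, hu'⟩ := S.cent_t_conj' hcomm
  obtain ⟨g', hg'⟩ : ∃ g', g' = u * (r * g * r⁻¹) * u⁻¹ := ⟨_, rfl⟩
  rw [← hg'] at hu'
  have ho : orderOf g' = 6 := by rw [hg', ord_conj, ord_conj, hg]
  have hg'3 : g' ^ 3 = S.t := by
    rw [hg', conj_pow, hr', ← hu, mul_inv_cancel_right]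
  have hg't : S.t * g' = g' * S.t := by rw [← hg'3, ← pow_succ, ← pow_succ']
  rw [← card_cent_conj r g, ← card_cent_conj u, ← hg']
  rcases hu' with hB | hC
  · obtain ⟨U, κ, h⟩ := S.mem_BT.1 ⟨hB, Subgroup.mem_centralizer_singleton_iff.2 hg't.symm⟩
    have hκ : κ = 1 ∨ κ = -1 := by
      have h6 : g' ^ 6 = 1 := by rw [← ho]; exact pow_orderOf_eq_one g'
      rw [h] at h6
      obtain ⟨T', U', W', h7⟩ := S.B_pow 0 U 0 κ 6
      rw [h7] at h6
      have h8 := S.xh_inj (T := T') (U := U') (W := W') (T' := 0) (U' := 0) (W' := 0) (κ := κ ^ 6) (κ' := 1) (by rw [h6, x_zero, map_one, mul_one])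
      have h9 : (κ : K) ^ 6 = 1 := by rw [← Units.val_pow_eq_pow_val, h8.2.2.2, Units.val_one]
      have h10 : ((κ : K) ^ 2 - 1) ^ 3 = 0 := by
        have : ((κ : K) ^ 2 - 1) ^ 3 = (κ : K) ^ 6 - 1 := by
          linear_combination (-(κ : K) ^ 4 + (κ : K) ^ 2) * τ.h3
        rw [this, h9, sub_self]
      have h11 : ((κ : K) - 1) * ((κ : K) + 1) = 0 := by linear_combination (pow_eq_zero_iff (by norm_num)).1 h10
      rcases mul_eq_zero.1 h11 with h12 | h12
      · left; exact Units.ext (by rw [Units.val_one]; linear_combination h12)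
      · right; exact Units.ext (by rw [Units.val_neg, Units.val_one]; linear_combination h12)
    rcases hκ with rfl | rfl
    · exfalso
      rw [map_one, mul_one] at h
      have : g' ^ 3 = 1 := by rw [h, x0_cube]
      rw [hg'3] at this
      exact S.t_ne_one this
    · rw [h]
      apply S.cent_six
      rintro rfl
      rw [x_zero, one_mul] at h
      rw [h, orderOf_h_neg_one] at ho
      norm_num at ho
  · exfalso
    rcases S.order_C0 hK hC with h | h
    · have := orderOf_dvd_of_pow_eq_one h
      rw [ho] at this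
      norm_num at this
    · apply h
      rw [ho]
      exact cop_kA_6 hK

end RS

end Cfsg.Agent.Ree
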