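import Cfsg.Agent.Ree.Prd6

set_option autoImplicit false
set_option maxHeartbeats 1000000
set_option linter.unusedSectionVars false

/-!
Products of two conjugates of a regular semisimple element of the Ree groups.
-/

namespace Cfsg.Agent.Ree

open scoped ComplexConjugate BigOperators
open Cfsg Cfsg.Agent.CharBase

universe u

/-- the trivial intersection data of a torus -/
def XT.data {R : Type u} [Group R] {T : Subgroup R} {N w : ℕ} (hT : XT T N w) : H74.TIData R where
  P := T
  C := T
  N := Subgroup.normalizer (T : Set R)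
  hPC := le_rfl
  hcent := fun u hu c hc => hT.tor.comm u hu c hc
  hCN := Subgroup.le_normalizer
  hN := fun x hx c hc => (Subgroup.mem_normalizer_iff''.1 hx c).1 hc
  hNP := fun x hx c hc => (Subgroup.mem_normalizer_iff''.1 hx c).1 hc
  hfree := fun x _ u hu hu1 h => by
    rw [← hT.tor.cent u hu hu1, Subgroup.mem_centralizer_singleton_iff]
    calc x * u = x * (x⁻¹ * u * x) := by rw [h]
      _ = u * x := by group
  π := MonoidHom.id _
  hπ := fun _ => rfl
  hTI := fun x c c' h h1 => by
    have hc : (c' : R) ≠ 1 := fun h2 => h1 (Subtype.ext h2)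
    refine hT.tor.mem_norm (y := (c' : R)) c'.2 hc ?_
    have : x * (c' : R) * x⁻¹ = c := by rw [h]; group
    rw [this]
    exact c.2

lemma XT.full {R : Type u} [Group R] {T : Subgroup R} {N w : ℕ} (hT : XT T N w) : Exc.Full hT.data where
  ker := fun _ h => h
  comm := fun a b => Subtype.ext (hT.tor.comm a a.2 b b.2)

lemma XT.e_eq {R : Type u} [Group R] [Finite R] {T : Subgroup R} {N w : ℕ} (hT : XT T N w) : hT.data.e = w := by
  have h := hT.norm
  have h1 : 0 < Nat.card T := Nat.card_pos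
  change Nat.card (Subgroup.normalizer (T : Set R)) / Nat.card T = w
  rw [h, Nat.mul_div_cancel _ h1]

/-- a nontrivial group has a nontrivial irreducible character -/
lemma exists_ne_one {G : Type u} [Group G] [Finite G] (h : 1 < Nat.card G) : ∃ θ : IrrCharacter G, θ ≠ oneIrr G := by
  classical
  cases nonempty_fintype G
  have : Fintype (IrrCharacter G) := Fintype.ofFinite _
  by_contra hc
  push Not at hc
  have h1 := sum_norm_sq_ne (1 : G)
  have h2 : Finset.univ.erase (oneIrr G) = ∅ := by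
    ext χ
    simp [hc χ]
  rw [h2, Finset.sum_empty] at h1
  have h3 : Nat.card (Subgroup.centralizer ({1} : Set G)) = Nat.card G := by
    have : Subgroup.centralizer ({1} : Set G) = ⊤ := by
      rw [eq_top_iff]
      intro x _
      rw [Subgroup.mem_centralizer_singleton_iff]
      simp
    rw [this]
    exact Nat.card_congr Subgroup.topEquiv.toEquiv
  rw [h3] at h1
  have h4 : (1 : ℝ) < Nat.card G := by exact_mod_cast h
  linarith

/-- an involution inverting the torus -/
lemma XT.inv {R : Type*} [Group R] [Finite R] {T : Subgroup R} {N : ℕ} (hT : XT T N 6) (hodd : ¬ 2 ∣ Nat.card T) :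
    ∃ s : R, s * s = 1 ∧ s ∉ T ∧ (∀ y ∈ T, s * y * s ∈ T) ∧ ∀ y ∈ T, (y * s) * (y * s) = 1 ∧ y * s ≠ 1 := by
  have h2 : Fact (Nat.Prime 2) := Fact.mk Nat.prime_two
  obtain ⟨⟨s, hs⟩, hso⟩ := exists_prime_orderOf_dvd_card' (G := Subgroup.normalizer (T : Set R)) 2 (by
    rw [hT.norm]
    exact Dvd.dvd.mul_right (by norm_num) _)
  rw [Subgroup.orderOf_mk] at hso
  have hss : s * s = 1 := by
    rw [← sq, ← hso]; exact pow_orderOf_eq_one s
  have hs1 : s ≠ 1 := by
    rintro rfl
    rw [orderOf_one] at hso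
    norm_num at hso
  have hsT : s ∉ T := by
    intro h
    apply hodd
    rw [← hso]
    exact Subgroup.orderOf_dvd_natCard _ h
  have hsi : s⁻¹ = s := by rw [inv_eq_iff_mul_eq_one]; exact hss
  have hsy : ∀ y ∈ T, s * y * s ∈ T := by
    intro y hy
    have := (Subgroup.mem_normalizer_iff.1 hs y).1 hy
    rwa [hsi] at this
  refine ⟨s, hss, hsT, hsy, ?_⟩
  intro y hy
  constructor
  · by_contra hne
    apply hsT
    have hz : y * (s * y * s) ∈ T := mul_mem hy (hsy y hy)
    have e1 : (y * s) * (y * s) = y * (s * y * s) := by group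
    rw [e1] at hne
    rw [← hT.tor.cent _ hz hne, Subgroup.mem_centralizer_singleton_iff]
    have e2 : y * (s * y * s) = (s * y * s) * y := hT.tor.comm _ hy _ (hsy y hy)
    calc s * (y * (s * y * s)) = (s * y * s) * y * s := by group
      _ = y * (s * y * s) * s := by rw [e2]
  · intro h
    apply hsT
    have : s = y⁻¹ := by rw [eq_inv_iff_mul_eq_one, ← mul_eq_one_comm]; exact h
    rw [this]
    exact inv_mem hy

/-- arithmetic facts -/
lemma ar0 {q r : ℝ} (hr : 9 ≤ r) (h : r ^ 2 = 3 * q) : r ≤ q + 1 - r ∧ (q + 1 + r) * (q + 1 - r) = q ^ 2 - q + 1 := by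
  constructor
  · nlinarith
  · nlinarith

lemma ar1 {q r : ℝ} (hr : 9 ≤ r) (h : r ^ 2 = 3 * q) : (q + 1 + r - 1) ^ 2 * (3 * q - 1) < (q ^ 2 - q + 1) ^ 2 := by
  obtain ⟨h1, h2⟩ := ar0 hr h
  rw [← h2, mul_pow]
  have h3 : 3 * q - 1 < (q + 1 - r) ^ 2 := by nlinarith
  have h4 : 0 < q := by nlinarith
  have h5 : (q + 1 + r - 1) ^ 2 ≤ (q + 1 + r) ^ 2 := by nlinarith
  calc (q + 1 + r - 1) ^ 2 * (3 * q - 1) ≤ (q + 1 + r) ^ 2 * (3 * q - 1) :=
        mul_le_mul_of_nonneg_right h5 (by nlinarith)
    _ < _ := mul_lt_mul_of_pos_left h3 (by positivity)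

lemma ar2 {q r : ℝ} (hr : 9 ≤ r) (h : r ^ 2 = 3 * q) : q * (1 + (q + r) * Real.sqrt (q + r) / (q ^ 2 - q + 1)) < q + 1 + r := by
  obtain ⟨h1, h2⟩ := ar0 hr h
  have hq : 0 < q := by nlinarith
  have hM : 0 < q + 1 + r := by linarith
  have hM2 : 0 < q + 1 - r := by linarith
  have h3 : q * Real.sqrt (q + r) ≤ (1 + r) * (q + 1 - r) := by
    apply le_of_sq_le_sq _ (by positivity)
    rw [mul_pow, Real.sq_sqrt (by linarith)]
    have e : q = r ^ 2 / 3 := by rw [h]; ring
    have h6 : (1 + r) * (q + 1 - r) = (r ^ 3 - 2 * r ^ 2 + 3) / 3 := by rw [e]; ring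
    rw [h6, e]
    have h7 : (r ^ 2 * (r - 2)) ^ 2 ≤ (r ^ 3 - 2 * r ^ 2 + 3) ^ 2 := by
      apply pow_le_pow_left₀
      · have : 0 ≤ r - 2 := by linarith
        positivity
      · nlinarith
    have h8 : r ^ 2 / 3 + r ≤ (r - 2) ^ 2 := by nlinarith
    have h9 : r ^ 4 * (r ^ 2 / 3 + r) ≤ r ^ 4 * (r - 2) ^ 2 := mul_le_mul_of_nonneg_left h8 (by positivity)
    nlinarith
  rw [← h2]
  have h4 : q * ((q + r) * Real.sqrt (q + r) / ((q + 1 + r) * (q + 1 - r))) < 1 + r := by
    rw [← mul_div_assoc, div_lt_iff₀ (by positivity)]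
    calc q * ((q + r) * Real.sqrt (q + r)) = (q + r) * (q * Real.sqrt (q + r)) := by ring
      _ ≤ (q + r) * ((1 + r) * (q + 1 - r)) := mul_le_mul_of_nonneg_left h3 (by linarith)
      _ < (q + 1 + r) * ((1 + r) * (q + 1 - r)) := mul_lt_mul_of_pos_right (by linarith) (by positivity)
      _ = _ := by ring
  linarith

namespace RS

variable {K : Type*} [Field K] {τ : Tits K} {R : Type u} [Group R] (S : RS τ R)
variable [Fintype K] {m : ℕ} (hK : Fintype.card K = 3 ^ (2 * m + 1))

/-- crude bound for the sum of the values of a nontrivial character over the torus -/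
lemma rT_le [Finite R] {T : Subgroup R} [Fintype T] [Fintype (IrrCharacter R)] (hc : ∀ y ∈ T, y ≠ 1 → Nat.card (Subgroup.centralizer ({y} : Set R)) = Nat.card T)
    {χ : IrrCharacter R} (hχ : χ ≠ oneIrr R) :
    rT T χ ≤ rdeg χ + ((Nat.card T : ℝ) - 1) * Real.sqrt ((Nat.card T : ℝ) - 1) := by
  classical
  rw [rT, ← Finset.add_sum_erase Finset.univ _ (Finset.mem_univ (1 : T))]
  have h1 : ∀ y ∈ Finset.univ.erase (1 : T), ((χ : R → ℂ) y).re ≤ Real.sqrt ((Nat.card T : ℝ) - 1) := by
    intro y hy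
    have hy1 : (y : R) ≠ 1 := fun h => (Finset.ne_of_mem_erase hy) (Subtype.ext h)
    refine (Complex.re_le_norm _).trans (Real.le_sqrt_of_sq_le ?_)
    rw [← hc y y.2 hy1]
    exact norm_sq_le hχ _
  have h2 := Finset.sum_le_card_nsmul _ _ _ h1
  rw [Finset.card_erase_of_mem (Finset.mem_univ _), Finset.card_univ, nsmul_eq_mul, ← Nat.card_eq_fintype_card] at h2
  have h3 : ((Nat.card T - 1 : ℕ) : ℝ) = (Nat.card T : ℝ) - 1 := by
    rw [Nat.cast_sub Nat.card_pos, Nat.cast_one]
  rw [h3] at h2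
  have h4 : ((χ : R → ℂ) ((1 : T) : R)).re = rdeg χ := rfl
  rw [h4]
  linarith

include S hK in
theorem PT_t (hq : 3 < Fintype.card K) {x : R} (hx : Reg K x) : PT x S.t := by
  classical
  have hfin := S.finite_R
  cases nonempty_fintype R
  have : Fintype (IrrCharacter R) := Fintype.ofFinite _
  obtain ⟨T1, T2, hT1, hT2, c1, c2, hN, hco⟩ := S.tori_X hK hq
  have : Fintype T1 := Fintype.ofFinite _
  have hm : 1 ≤ m := by
    rcases Nat.eq_zero_or_pos m with h | h
    · rw [hK, h] at hq; norm_num at hq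
    · exact h
  obtain ⟨r, hr⟩ : ∃ r, r = 3 ^ (m + 1) := ⟨_, rfl⟩
  have hr2 : r ^ 2 = 3 * Fintype.card K := by
    rw [hr, hK]; ring
  have hr9 : 9 ≤ r := by
    rw [hr]
    calc 9 = 3 ^ 2 := by norm_num
      _ ≤ 3 ^ (m + 1) := Nat.pow_le_pow_right (by norm_num) (by omega)
  rw [← hr] at c1 c2
  have hodd : ¬ 2 ∣ Nat.card T1 := by
    have h1 : ¬ 2 ∣ Fintype.card K := by
      rw [hK]
      intro h
      have := Nat.prime_two.dvd_of_dvd_pow h
      norm_num at this
    have h2 : ¬ 2 ∣ r := by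
      rw [hr]
      intro h
      have := Nat.prime_two.dvd_of_dvd_pow h
      norm_num at this
    omega
  obtain ⟨s, hs1, hs2, hs3, hs4⟩ := hT1.inv hodd
  have hst : ∀ y ∈ T1, IsConj S.t (y * s) := by
    intro y hy
    obtain ⟨h1, h2⟩ := hs4 y hy
    obtain ⟨g, hg⟩ := S.conj_t hK h2 h1
    exact (isConj_iff.2 ⟨g, hg⟩).symm
  have hrR : (9 : ℝ) ≤ r := by exact_mod_cast hr9
  have hr2R : (r : ℝ) ^ 2 = 3 * (Fintype.card K : ℝ) := by exact_mod_cast hr2
  have c1R : (Nat.card T1 : ℝ) = Fintype.card K + 1 + r := by rw [c1]; push_cast; ring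
  obtain ⟨hD1, hD2⟩ := ar0 hrR hr2R
  have hDpos : (0 : ℝ) < (Fintype.card K : ℝ) ^ 2 - Fintype.card K + 1 := by
    nlinarith
  have hcent : ∀ y ∈ T1, y ≠ 1 → Nat.card (Subgroup.centralizer ({y} : Set R)) = Nat.card T1 := by
    intro y hy hy1
    rw [hT1.tor.cent y hy hy1]
  by_cases hcx : Nat.card (Subgroup.centralizer ({x} : Set R)) ≤ Fintype.card K + 1
  · refine PT_dih T1 s S.t hs1 hs2 hs3 hst (by exact S.t_mul_t) (S.isConj_inv hK hq hx) ?_
    have hcxR : (Nat.card (Subgroup.centralizer ({x} : Set R)) : ℝ) - 1 ≤ Fintype.card K := by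
      have : (Nat.card (Subgroup.centralizer ({x} : Set R)) : ℝ) ≤ Fintype.card K + 1 := by exact_mod_cast hcx
      linarith
    have h1 : ∀ χ ∈ Finset.univ.erase (oneIrr R), ‖(χ : R → ℂ) x‖ ^ 2 * (rT T1 χ / rdeg χ) ≤
        ‖(χ : R → ℂ) x‖ ^ 2 * (1 + ((Fintype.card K : ℝ) + r) * Real.sqrt ((Fintype.card K : ℝ) + r) / ((Fintype.card K : ℝ) ^ 2 - Fintype.card K + 1)) := by
      intro χ hχ
      have hχ1 := Finset.ne_of_mem_erase hχ
      apply mul_le_mul_of_nonneg_left _ (sq_nonneg _)
      have h2 := rT_le hcent hχ1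
      have h3 := S.rdeg_ge hK hq χ hχ1
      have h4 := rdeg_pos χ
      have e : (Nat.card T1 : ℝ) - 1 = Fintype.card K + r := by rw [c1R]; ring
      rw [e] at h2
      calc rT T1 χ / rdeg χ ≤ (rdeg χ + ((Fintype.card K : ℝ) + r) * Real.sqrt ((Fintype.card K : ℝ) + r)) / rdeg χ :=
            div_le_div_of_nonneg_right h2 h4.le
        _ = 1 + ((Fintype.card K : ℝ) + r) * Real.sqrt ((Fintype.card K : ℝ) + r) / rdeg χ := by
            field_simp
        _ ≤ _ := by
            apply add_le_add le_rfl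
            apply div_le_div_of_nonneg_left _ hDpos h3
            positivity
    refine (Finset.sum_le_sum h1).trans_lt ?_
    rw [← Finset.sum_mul, sum_norm_sq_ne, c1R]
    refine lt_of_le_of_lt (mul_le_mul_of_nonneg_right hcxR ?_) (ar2 hrR hr2R)
    positivity
  · have hx1 : ¬ Nat.Coprime (orderOf x) (Nat.card T1) := by
      rcases hx with h | h | h
      · exfalso
        apply hcx
        rw [S.cent_H hK hq h]
        omega
      · exfalso
        apply hcx
        rw [S.cent_A hK hq h]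
      · rw [hN, Nat.coprime_mul_iff_right, not_and_or] at h
        rcases h with h | h
        · exact h
        · exfalso
          apply hcx
          rw [hT2.cent h]
          omega
    obtain ⟨g, hg⟩ := hT1.tor.conj_of_not_coprime hx1
    have hy1 : g * x * g⁻¹ ≠ 1 := by
      intro h
      rw [conj_eq_one_iff] at h
      apply hx1
      rw [h, orderOf_one]
      exact Nat.coprime_one_left _
    obtain ⟨y, hy⟩ : ∃ y, y = g * x * g⁻¹ := ⟨_, rfl⟩
    rw [← hy] at hg hy1
    refine PT.of_isConj (y := y) (isConj_iff.2 ⟨g, hy.symm⟩) ?_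
    have hxy : Reg K y := by
      rw [hy]
      rcases hx with h | h | h
      · exact Or.inl (order_inv _ _ _ h)
      · exact Or.inr (Or.inl (order_inv _ _ _ h))
      · exact Or.inr (Or.inr (order_inv _ _ _ h))
    refine PT_dih T1 s S.t hs1 hs2 hs3 hst (by exact S.t_mul_t) (S.isConj_inv hK hq hxy) ?_
    letI : Fintype hT1.data.C := (inferInstance : Fintype T1)
    have : Fintype hT1.data.N := Fintype.ofFinite _
    have hr3 : r = 9 ∨ 27 ≤ r := by
      rcases (show m = 1 ∨ 2 ≤ m by omega) with h | h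
      · left; rw [hr, h]; norm_num
      · right
        rw [hr]
        calc 27 = 3 ^ 3 := by norm_num
          _ ≤ 3 ^ (m + 1) := Nat.pow_le_pow_right (by norm_num) (by omega)
    have hqr : 3 * (r : ℝ) ≤ Fintype.card K := by nlinarith
    have hq27 : (27 : ℝ) ≤ Fintype.card K := by linarith
    have hbd := Exc.bound hT1.full (exists_ne_one (by
        change 1 < Nat.card T1
        omega)) (fun z hz => hcent z z.2 (fun h => hz (Subtype.ext h))) (hT1.e_eq) (S.rdeg_ge hK hq) (by
        change 37 ≤ Nat.card T1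
        nlinarith) (by
        change Nat.card T1 ≠ 43
        rcases hr3 with h | h
        · rw [h] at hr2 c1
          omega
        · rw [c1]
          omega) (by nlinarith) (by
        change 6 * ((Nat.card T1 : ℝ) - 6) + 10 * ((Nat.card T1 : ℝ) - 1) < _
        rw [c1R]
        nlinarith) (by
        intro h37 d h1 h2 h3
        have h37' : Nat.card T1 = 37 := h37
        have h9 : r = 9 := by
          rcases hr3 with h | h
          · exact h
          · omega
        have hq27' : Fintype.card K = 27 := by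
          rw [h9] at hr2
          omega
        have hR : Nat.card R = 10073444472 := by
          rw [S.card, hq27']
          norm_num
        rw [hR] at h3
        have key : ∀ d < 1107, 703 ≤ d → d ∣ 10073444472 → ¬ (d % 37 = 7 ∨ d % 37 = 30) := by decide +kernel
        exact key d h2 h1 h3) ⟨y, hg⟩ (fun h => hy1 (congrArg Subtype.val h))
    exact hbd

include S hK in
/-- regular semisimple elements: every nontrivial element is a product of two conjugates -/
theorem PT_main (hq : 3 < Fintype.card K) {x : R} (hx : Reg K x) {g : R} (hg : g ≠ 1) : PT x g := by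
  classical
  have hfin := S.finite_R
  obtain ⟨T1, T2, hT1, hT2, c1, c2, hN, hco⟩ := S.tori_X hK hq
  have hm : 1 ≤ m := by
    rcases Nat.eq_zero_or_pos m with h | h
    · rw [hK, h] at hq; norm_num at hq
    · exact h
  obtain ⟨r, hr⟩ : ∃ r, r = 3 ^ (m + 1) := ⟨_, rfl⟩
  have hr2 : r ^ 2 = 3 * Fintype.card K := by
    rw [hr, hK]; ring
  have hr9 : 9 ≤ r := by
    rw [hr]
    calc 9 = 3 ^ 2 := by norm_num
      _ ≤ 3 ^ (m + 1) := Nat.pow_le_pow_right (by norm_num) (by omega)
  rw [← hr] at c1 c2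
  have hrR : (9 : ℝ) ≤ r := by exact_mod_cast hr9
  have hr2R : (r : ℝ) ^ 2 = 3 * (Fintype.card K : ℝ) := by exact_mod_cast hr2
  have hrq : r ≤ Fintype.card K := by nlinarith
  obtain ⟨hD1, hD2⟩ := ar0 hrR hr2R
  have hDpos : (0 : ℝ) < (Fintype.card K : ℝ) ^ 2 - Fintype.card K + 1 := by
    nlinarith
  have hcent : ∀ y : R, Reg K y → Nat.card (Subgroup.centralizer ({y} : Set R)) ≤ Fintype.card K + 1 + r := by
    intro y hy
    rcases hy with h | h | h
    · rw [S.cent_H hK hq h]; omega
    · rw [S.cent_A hK hq h]; omega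
    · rw [hN, Nat.coprime_mul_iff_right, not_and_or] at h
      rcases h with h | h
      · rw [hT1.cent h, c1]
      · rw [hT2.cent h]; omega
  have hsmall : Nat.card (Subgroup.centralizer ({g} : Set R)) ≤ 3 * Fintype.card K → PT x g := by
    intro h
    apply PT_small hDpos (S.rdeg_ge hK hq)
    refine lt_of_le_of_lt ?_ (ar1 hrR hr2R)
    have h1 : (Nat.card (Subgroup.centralizer ({x} : Set R)) : ℝ) ≤ Fintype.card K + 1 + r := by exact_mod_cast hcent x hx
    have h2 : (1 : ℝ) ≤ Nat.card (Subgroup.centralizer ({x} : Set R)) := by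
      have : 0 < Nat.card (Subgroup.centralizer ({x} : Set R)) := Nat.card_pos
      exact_mod_cast this
    have h3 : (Nat.card (Subgroup.centralizer ({g} : Set R)) : ℝ) ≤ 3 * Fintype.card K := by exact_mod_cast h
    have h4 : (1 : ℝ) ≤ Nat.card (Subgroup.centralizer ({g} : Set R)) := by
      have : 0 < Nat.card (Subgroup.centralizer ({g} : Set R)) := Nat.card_pos
      exact_mod_cast this
    apply mul_le_mul _ (by linarith) (by linarith) (by positivity)
    apply pow_le_pow_left₀ (by linarith)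
    linarith
  rcases S.order_cases hK hq g with h | h | (h | h) | h | h | h | h
  · exact absurd (orderOf_eq_one_iff.1 h) hg
  · obtain ⟨c, hc⟩ := S.conj_t hK hg (by rw [← sq, ← h]; exact pow_orderOf_eq_one g)
    apply PT.of_conj c
    rw [hc]
    exact S.PT_t hK hq hx
  · exact S.PT_three hK hq hx h
  · exact hsmall (S.cent_of_nine hK hq h)
  · exact hsmall ((S.cent_of_six hK hq h).trans (by omega))
  · exact hsmall ((hcent g (Or.inl h)).trans (by omega))
  · exact hsmall ((hcent g (Or.inr (Or.inl h))).trans (by omega))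
  · exact hsmall ((hcent g (Or.inr (Or.inr h))).trans (by omega))

include S hK in
theorem covers (hq : 3 < Fintype.card K) {x : R} (hx2 : 2 < orderOf x) (hx3 : ¬ 3 ∣ orderOf x) :
    ∀ g : R, g ≠ 1 → ∃ u v : R, g = (u * x * u⁻¹) * (v * x * v⁻¹) := by
  intro g hg
  refine S.PT_main hK hq ?_ hg
  rcases S.order_cases hK hq x with h | h | (h | h) | h | h | h | h
  · omega
  · omega
  · omega
  · omega
  · omega
  · exact Or.inl h
  · exact Or.inr (Or.inl h)
  · exact Or.inr (Or.inr h)

end RS

end Cfsg.Agent.Ree
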