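import Cfsg.Agent.Ree.Tor4

set_option autoImplicit false
set_option maxHeartbeats 1000000

/-!
Solvable subgroups are local.
-/

namespace Cfsg.Agent.Ree



/-- an elementary abelian normal subgroup of a solvable subgroup -/
lemma exists_elem_abelian {R : Type*} [Group R] [Finite R] (E : Subgroup R) (hs : Group.IsSolvable E) (hne : E ≠ ⊥) :
    ∃ p : ℕ, p.Prime ∧ ∃ V : Subgroup R, V ≤ E ∧ V ≠ ⊥ ∧ (∀ x ∈ V, ∀ y ∈ V, x * y = y * x) ∧ (∀ x ∈ V, x ^ p = 1) ∧
      (∀ e ∈ E, ∀ v ∈ V, e * v * e⁻¹ ∈ V) := by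
  classical
  obtain ⟨hn⟩ := hs
  set n := Nat.find hn with hnn
  have h1 : derivedSeries E n = ⊥ := Nat.find_spec hn
  have h0 : n ≠ 0 := by
    intro h
    rw [h, derivedSeries_zero] at h1
    apply hne
    rw [Subgroup.eq_bot_iff_forall]
    intro x hx
    have : (⟨x, hx⟩ : E) ∈ (⊤ : Subgroup E) := trivial
    rw [h1, Subgroup.mem_bot] at this
    exact congrArg Subtype.val this
  obtain ⟨k, hk⟩ : ∃ k, n = k + 1 := ⟨n - 1, by omega⟩
  have h2 : derivedSeries E k ≠ ⊥ := Nat.find_min hn (by omega)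
  have hnorm : (derivedSeries E k).Normal := derivedSeries_normal E k
  set D := derivedSeries E k with hD
  have h3 : ∀ x ∈ D, ∀ y ∈ D, x * y = y * x := by
    intro x hx y hy
    rw [hk, derivedSeries_succ, Subgroup.commutator_eq_bot_iff_le_centralizer] at h1
    exact (Subgroup.mem_centralizer_iff.1 (h1 hx) y hy).symm
  have h4 : Nat.card D ≠ 1 := by
    rw [Ne, Subgroup.card_eq_one]; exact h2
  obtain ⟨p, hp, hpD⟩ := Nat.exists_prime_and_dvd h4
  have := Fact.mk hp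
  obtain ⟨⟨x, hxD⟩, hx⟩ := exists_prime_orderOf_dvd_card' p hpD
  have hx' : orderOf x = p := by rw [← hx]; exact (Subgroup.orderOf_mk x hxD).symm
  refine ⟨p, hp, 
    { carrier := {y | ∃ h : y ∈ E, (⟨y, h⟩ : E) ∈ D ∧ y ^ p = 1}
      one_mem' := ⟨one_mem _, one_mem _, one_pow _⟩
      mul_mem' := ?_
      inv_mem' := ?_ }, ?_, ?_, ?_, ?_, ?_⟩
  · rintro a b ⟨ha, ha1, ha2⟩ ⟨hb, hb1, hb2⟩
    refine ⟨mul_mem ha hb, mul_mem ha1 hb1, ?_⟩
    have hc : Commute a b := congrArg Subtype.val (h3 _ ha1 _ hb1)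
    rw [hc.mul_pow, ha2, hb2, one_mul]
  · rintro a ⟨ha, ha1, ha2⟩
    exact ⟨inv_mem ha, inv_mem ha1, by rw [inv_pow, ha2, inv_one]⟩
  · rintro a ⟨ha, -⟩
    exact ha
  · intro h
    have h5 : (x : R) ∈ (⊥ : Subgroup R) := by
      rw [← h]
      exact ⟨x.2, hxD, by
        have h6 := pow_orderOf_eq_one x
        rw [hx'] at h6
        exact congrArg Subtype.val h6⟩
    rw [Subgroup.mem_bot] at h5
    have h6 : x = 1 := Subtype.ext h5
    rw [h6, orderOf_one] at hx'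
    exact hp.one_lt.ne hx'
  · rintro a ⟨ha, ha1, ha2⟩ b ⟨hb, hb1, hb2⟩
    exact congrArg Subtype.val (h3 _ ha1 _ hb1)
  · rintro a ⟨ha, ha1, ha2⟩
    exact ha2
  · rintro e he a ⟨ha, ha1, ha2⟩
    refine ⟨mul_mem (mul_mem he ha) (inv_mem he), hnorm.conj_mem _ ha1 ⟨e, he⟩, ?_⟩
    rw [conj_pow, ha2]; group

/-- the double of a subgroup by a commuting involution -/
def dblHom {R : Type*} [Group R] (V : Subgroup R) (t : R) (ht : t * t = 1) (hc : ∀ v ∈ V, v * t = t * v) : V × Multiplicative (ZMod 2) →* R :=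
  MonoidHom.noncommCoprod V.subtype (pw t ht) (by
    rintro ⟨v, hv⟩ ε
    rcases pw_cases t ht ε with ⟨h, -⟩ | ⟨h, -⟩ <;> rw [h]
    · exact Commute.one_right _
    · exact hc v hv)

lemma mem_dbl {R : Type*} [Group R] {V : Subgroup R} {t : R} {ht : t * t = 1} {hc : ∀ v ∈ V, v * t = t * v} {x : R} :
    x ∈ (dblHom V t ht hc).range ↔ ∃ v ∈ V, x = v ∨ x = v * t := by
  have h1 : (Multiplicative.ofAdd (1 : ZMod 2)) ≠ 1 := by decide
  have h2 : pw t ht (Multiplicative.ofAdd (1 : ZMod 2)) = t := by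
    rcases pw_cases t ht (Multiplicative.ofAdd 1) with ⟨h, h'⟩ | ⟨h, h'⟩
    · exact absurd h' h1
    · exact h
  constructor
  · rintro ⟨⟨v, ε⟩, rfl⟩
    refine ⟨v, v.2, ?_⟩
    change (v : R) * pw t ht ε = v ∨ (v : R) * pw t ht ε = v * t
    rcases pw_cases t ht ε with ⟨h, -⟩ | ⟨h, -⟩ <;> rw [h]
    · left; exact mul_one _
    · right; rfl
  · rintro ⟨v, hv, rfl | rfl⟩
    · exact ⟨(⟨x, hv⟩, 1), by
        change x * pw t ht 1 = x
        rw [map_one, mul_one]⟩
    · exact ⟨(⟨v, hv⟩, Multiplicative.ofAdd 1), by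
        change v * pw t ht (Multiplicative.ofAdd 1) = v * t
        rw [h2]⟩

lemma solvable_dbl {R : Type*} [Group R] {V : Subgroup R} {t : R} {ht : t * t = 1} {hc : ∀ v ∈ V, v * t = t * v} (hV : Group.IsSolvable V) :
    Group.IsSolvable (dblHom V t ht hc).range := by
  exact Group.isSolvable_of_surjective (dblHom V t ht hc).rangeRestrict_surjective

/-- the kinds of subgroups whose normalizers contain all solvable subgroups -/
def LocalSub {R : Type*} [Group R] (L : Set ℕ) (A : Subgroup R) : Prop :=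
  (∃ P : Sylow 2 R, A = P) ∨ (∃ P : Sylow 3 R, A = P) ∨ (IsCyclic A ∧ Nat.card A ∈ L)

/-- contained in the normalizer of a subgroup of such a kind -/
def Good {R : Type*} [Group R] (L : Set ℕ) (E : Subgroup R) : Prop :=
  ∃ A : Subgroup R, E ≤ Subgroup.normalizer (A : Set R) ∧ LocalSub L A

lemma LocalSub.map {R : Type*} [Group R] [Finite R] {L : Set ℕ} {A : Subgroup R} (h : LocalSub L A) (g : R) :
    LocalSub L (A.map (MulAut.conj g).toMonoidHom) := by
  rcases h with ⟨P, rfl⟩ | ⟨P, rfl⟩ | ⟨h1, h2⟩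
  · left
    exact ⟨g • P, rfl⟩
  · right; left
    exact ⟨g • P, rfl⟩
  · right; right
    constructor
    · exact isCyclic_of_surjective (Subgroup.equivMapOfInjective A (MulAut.conj g).toMonoidHom (MulAut.conj g).injective)
        (Subgroup.equivMapOfInjective A (MulAut.conj g).toMonoidHom (MulAut.conj g).injective).surjective
    · rwa [← Nat.card_congr (Subgroup.equivMapOfInjective A (MulAut.conj g).toMonoidHom (MulAut.conj g).injective).toEquiv]

lemma Good.of_map {R : Type*} [Group R] [Finite R] {L : Set ℕ} {E : Subgroup R} {g : R} (h : Good L (E.map (MulAut.conj g).toMonoidHom)) : Good L E := by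
  obtain ⟨A, h1, h2⟩ := h
  refine ⟨A.map (MulAut.conj g⁻¹).toMonoidHom, ?_, h2.map g⁻¹⟩
  have hmem : ∀ y, y ∈ A.map (MulAut.conj g⁻¹).toMonoidHom ↔ g * y * g⁻¹ ∈ A := by
    intro y
    constructor
    · rintro ⟨x, hx, rfl⟩
      have : g * (g⁻¹ * x * g⁻¹⁻¹) * g⁻¹ = x := by group
      change g * (g⁻¹ * x * g⁻¹⁻¹) * g⁻¹ ∈ A
      rw [this]; exact hx
    · intro hy
      exact ⟨_, hy, by
        change g⁻¹ * (g * y * g⁻¹) * g⁻¹⁻¹ = y
        group⟩
  intro e he
  refine Subgroup.mem_normalizer_iff.2 fun y => ?_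
  rw [hmem, hmem, Subgroup.mem_normalizer_iff.1 (h1 ⟨e, he, rfl⟩)]
  have : (MulAut.conj g).toMonoidHom e * (g * y * g⁻¹) * ((MulAut.conj g).toMonoidHom e)⁻¹ = g * (e * y * e⁻¹) * g⁻¹ := by
    change (g * e * g⁻¹) * (g * y * g⁻¹) * (g * e * g⁻¹)⁻¹ = _
    group
  rw [this]

end Cfsg.Agent.Ree
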