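import Cfsg.Agent.Ree.Solv

set_option autoImplicit false
set_option maxHeartbeats 1000000

/-!
Solvable subgroups of the Ree group are local.
-/

namespace Cfsg.Agent.Ree

namespace RS

variable {K : Type*} [Field K] {τ : Tits K} {R : Type*} [Group R] (S : RS τ R)
variable [Fintype K] {m : ℕ} (hK : Fintype.card K = 3 ^ (2 * m + 1))

/-- the orders of the tori -/
def Lset (q r : ℕ) : Set ℕ := {k | k = (q - 1) / 2 ∨ k = (q + 1) / 4 ∨ k = q - r + 1 ∨ k = q + r + 1}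

include S hK in
lemma good_three [Finite R] (L : Set ℕ) {E V : Subgroup R} (h3 : IsPGroup 3 V) (hne : V ≠ ⊥) (hE : ∀ e ∈ E, ∀ v ∈ V, e * v * e⁻¹ ∈ V) : Good L E := by
  have := Fact.mk Nat.prime_three
  obtain ⟨P, hP⟩ := h3.exists_le_sylow
  obtain ⟨a, ha⟩ := MulAction.exists_smul_eq R P (S.sylU hK)
  have hmem : ∀ x ∈ V, a * x * a⁻¹ ∈ S.U := by
    intro x hx
    rw [← S.coe_sylU hK, ← ha]
    exact ⟨x, hP hx, rfl⟩
  obtain ⟨v, hv, hv1⟩ : ∃ v ∈ V, v ≠ 1 := by
    by_contra h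
    apply hne
    rw [Subgroup.eq_bot_iff_forall]
    intro x hx
    by_contra hx1
    exact h ⟨x, hx, hx1⟩
  apply Good.of_map (g := a)
  refine ⟨S.U, ?_, Or.inr (Or.inl ⟨S.sylU hK, (S.coe_sylU hK).symm⟩)⟩
  rintro _ ⟨e, he, rfl⟩
  have hB : (MulAut.conj a).toMonoidHom e ∈ S.B := by
    apply S.B_of_conj_U (hmem v hv) (by rw [Ne, conj_eq_one_iff]; exact hv1)
    have : (MulAut.conj a).toMonoidHom e * (a * v * a⁻¹) * ((MulAut.conj a).toMonoidHom e)⁻¹ = a * (e * v * e⁻¹) * a⁻¹ := by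
      change (a * e * a⁻¹) * (a * v * a⁻¹) * (a * e * a⁻¹)⁻¹ = _
      group
    rw [this]
    exact hmem _ (hE e he v hv)
  refine Subgroup.mem_normalizer_iff.2 fun x => ⟨fun hx => S.conj_U_of_B hB hx, fun hx => ?_⟩
  have := S.conj_U_of_B (inv_mem hB) hx
  rw [inv_inv] at this
  have e2 : ((MulAut.conj a).toMonoidHom e)⁻¹ * ((MulAut.conj a).toMonoidHom e * x * ((MulAut.conj a).toMonoidHom e)⁻¹) * (MulAut.conj a).toMonoidHom e = x := by group
  rwa [e2] at this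

lemma good_torus [Finite R] {L : Set ℕ} {T C : Subgroup R} (hT : Torus T C) (hL : Nat.card T ∈ L) {E V : Subgroup R} {p : ℕ} (hp : p.Prime)
    (hpT : p ∣ Nat.card T) (hne : V ≠ ⊥) (hab : ∀ x ∈ V, ∀ y ∈ V, x * y = y * x) (hexp : ∀ x ∈ V, x ^ p = 1)
    (hE : ∀ e ∈ E, ∀ v ∈ V, e * v * e⁻¹ ∈ V) : Good L E := by
  obtain ⟨v, hv, hv1⟩ : ∃ v ∈ V, v ≠ 1 := by
    by_contra h
    apply hne
    rw [Subgroup.eq_bot_iff_forall]
    intro x hx
    by_contra hx1
    exact h ⟨x, hx, hx1⟩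
  have hvo : orderOf v = p := by
    have := Fact.mk hp
    exact orderOf_eq_prime (hexp v hv) hv1
  obtain ⟨g, hg⟩ := hT.conj_of_prime hp hpT hvo
  apply Good.of_map (g := g)
  refine ⟨T, ?_, Or.inr (Or.inr ⟨hT.cyc, hL⟩)⟩
  have hmem : ∀ x ∈ V, g * x * g⁻¹ ∈ T := by
    intro x hx
    apply hT.mem
    · rw [← hT.cent _ hg (by rw [Ne, conj_eq_one_iff]; exact hv1), Subgroup.mem_centralizer_singleton_iff]
      calc g * x * g⁻¹ * (g * v * g⁻¹) = g * (x * v) * g⁻¹ := by group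
        _ = _ := by rw [hab x hx v hv]; group
    · rw [conj_pow]
      obtain ⟨k, hk⟩ := hpT
      rw [hk, pow_mul, hexp x hx, one_pow]; group
  rintro _ ⟨e, he, rfl⟩
  apply hT.mem_norm hg (by rw [Ne, conj_eq_one_iff]; exact hv1)
  have : (MulAut.conj g).toMonoidHom e * (g * v * g⁻¹) * ((MulAut.conj g).toMonoidHom e)⁻¹ = g * (e * v * e⁻¹) * g⁻¹ := by
    change (g * e * g⁻¹) * (g * v * g⁻¹) * (g * e * g⁻¹)⁻¹ = _
    group
  rw [this]
  exact hmem _ (hE e he v hv)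

include S hK in
/-- every prime divisor greater than three divides the order of one of the tori -/
lemma exists_torus (hq : 3 < Fintype.card K) {p : ℕ} (hp : p.Prime) (h2 : p ≠ 2) (h3 : p ≠ 3) (hpR : p ∣ Nat.card R) :
    ∃ T C : Subgroup R, Torus T C ∧ Nat.card T ∈ Lset (Fintype.card K) (3 ^ (m + 1)) ∧ p ∣ Nat.card T := by
  have hfin := S.finite_R
  rw [S.card'] at hpR
  have hp2 : ¬ p ∣ 2 := fun h => h2 ((Nat.prime_dvd_prime_iff_eq hp Nat.prime_two).1 h)
  rcases hp.dvd_mul.1 hpR with h | h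
  · rcases hp.dvd_mul.1 h with h | h
    · rcases hp.dvd_mul.1 h with h | h
      · exfalso
        have := hp.dvd_of_dvd_pow h
        rw [hK] at this
        exact h3 ((Nat.prime_dvd_prime_iff_eq hp Nat.prime_three).1 (hp.dvd_of_dvd_pow this))
      · refine ⟨_, _, S.torus_H hK hq, Or.inl (S.card_TH hK), ?_⟩
        rw [S.card_TH hK]
        have e : Fintype.card K - 1 = 2 * kH K := by
          have := (two_kH hK).1
          omega
        rw [e] at h
        exact (hp.dvd_mul.1 h).resolve_left hp2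
    · refine ⟨_, _, S.torus_A hK hq, Or.inr (Or.inl (S.card_A hK)), ?_⟩
      rw [S.card_A hK]
      rw [four_kA hK] at h
      exact (hp.dvd_mul.1 h).resolve_left (fun h => hp2 (hp.dvd_of_dvd_pow (show p ∣ 2 ^ 2 from h)))
  · obtain ⟨T1, T2, h1, h2, e1, e2, e3, -⟩ := S.tori_X hK hq
    have hrq : 3 ^ (m + 1) ≤ Fintype.card K := by
      rw [hK]; exact Nat.pow_le_pow_right (by norm_num) (by omega)
    rw [e3] at h
    rcases hp.dvd_mul.1 h with h | h
    · exact ⟨_, _, h1.tor, Or.inr (Or.inr (Or.inr (by omega))), h⟩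
    · exact ⟨_, _, h2.tor, Or.inr (Or.inr (Or.inl (by omega))), h⟩

include hK in
/-- the normalizer of the four-group normalizes the torus -/
lemma norm_A_of_V4 [Finite R] {r : R} (hr : ∀ v ∈ S.V4, r * v * r⁻¹ ∈ S.V4) (hr' : ∀ v ∈ S.V4, r⁻¹ * v * r ∈ S.V4) :
    r ∈ Subgroup.normalizer (S.A : Set R) := by
  have key : ∀ g, g ∈ S.A ↔ (∀ v ∈ S.V4, v * g = g * v) ∧ g ^ kA K = 1 := by
    intro g
    rw [S.mem_A_iff hK]
    constructor
    · rintro ⟨h1, h2, h3⟩
      refine ⟨?_, h3⟩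
      rintro v hv
      rcases S.mem_V4.1 hv with rfl | rfl | rfl | rfl
      · simp
      · exact h1
      · exact h2.symm
      · have : Commute g (S.t * S.n) := (show Commute g S.t from h1.symm).mul_right h2
        exact this.eq.symm
    · rintro ⟨h1, h2⟩
      exact ⟨h1 _ S.t_mem_V4, (h1 _ S.n_mem_V4).symm, h2⟩
  refine Subgroup.mem_normalizer_iff.2 fun x => ?_
  rw [key, key]
  constructor
  · rintro ⟨h1, h2⟩
    refine ⟨fun v hv => ?_, by rw [conj_pow, h2]; group⟩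
    have h3 := h1 _ (hr' v hv)
    calc v * (r * x * r⁻¹) = r * ((r⁻¹ * v * r) * x) * r⁻¹ := by group
      _ = _ := by rw [h3]; group
  · rintro ⟨h1, h2⟩
    refine ⟨fun v hv => ?_, by rwa [conj_pow, conj_eq_one_iff] at h2⟩
    have h3 := h1 _ (hr v hv)
    calc v * x = r⁻¹ * ((r * v * r⁻¹) * (r * x * r⁻¹)) * r := by group
      _ = _ := by rw [h3]; group

include S hK in
/-- four-groups are conjugate to `V4` -/
lemma four_conj [Finite R] {V : Subgroup R} (hV : IsPGroup 2 V) (hc : Nat.card V = 4) : ∃ g : R, V.map (MulAut.conj g).toMonoidHom = S.V4 := by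
  have hcomm : ∀ {x y : R}, x ∈ V → y ∈ V → x * y = y * x ∧ x * x = 1 := fun hx hy => S.two_comm hK hV hx hy
  have hV4card : Nat.card S.V4 = 4 := by
    have := S.V4_ncard
    rwa [← Nat.card_coe_set_eq] at this
  obtain ⟨v, hv, hv1⟩ : ∃ v ∈ V, v ≠ 1 := by
    by_contra h
    have : V = ⊥ := by
      rw [Subgroup.eq_bot_iff_forall]
      intro x hx
      by_contra hx1
      exact h ⟨x, hx, hx1⟩
    rw [this, Subgroup.card_bot] at hc
    omega
  obtain ⟨w, hw, hw1, hwv⟩ : ∃ w ∈ V, w ≠ 1 ∧ w ≠ v := by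
    by_contra h
    have h1 : (V : Set R) ⊆ {1, v} := by
      intro x hx
      by_contra hx1
      simp only [Set.mem_insert_iff, Set.mem_singleton_iff, not_or] at hx1
      exact h ⟨x, hx, hx1⟩
    have h2 := Set.ncard_le_ncard h1 (Set.toFinite _)
    rw [Set.ncard_pair hv1.symm, ← Nat.card_coe_set_eq] at h2
    have h3 : Nat.card V ≤ 2 := h2
    omega
  obtain ⟨a, ha⟩ := S.conj_t hK hv1 (hcomm hv hv).2
  have htw : S.t * (a * w * a⁻¹) = (a * w * a⁻¹) * S.t := by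
    rw [← ha]
    calc a * v * a⁻¹ * (a * w * a⁻¹) = a * (v * w) * a⁻¹ := by group
      _ = _ := by rw [(hcomm hv hw).1]; group
  have haw1 : a * w * a⁻¹ ≠ 1 := by rw [Ne, conj_eq_one_iff]; exact hw1
  have haw2 : (a * w * a⁻¹) * (a * w * a⁻¹) = 1 := by
    calc (a * w * a⁻¹) * (a * w * a⁻¹) = a * (w * w) * a⁻¹ := by group
      _ = 1 := by rw [(hcomm hw hw).2]; group
  have hawt : a * w * a⁻¹ ≠ S.t := by
    rw [← ha]
    intro h
    exact hwv (mul_left_cancel (mul_right_cancel h))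
  obtain ⟨s, hs⟩ := S.cent_cases htw
  -- the element `u` of `V` mapping to `psi s`
  obtain ⟨u, hu, hus⟩ : ∃ u ∈ V, a * u * a⁻¹ = S.psi s := by
    rcases hs with hs | hs
    · exact ⟨w, hw, hs⟩
    · refine ⟨v * w, mul_mem hv hw, ?_⟩
      calc a * (v * w) * a⁻¹ = (a * v * a⁻¹) * (a * w * a⁻¹) := by group
        _ = S.psi s := by rw [ha, hs, ← mul_assoc, t_mul_t, one_mul]
  have hpsi1 : S.psi s ≠ 1 := by
    intro h
    rcases hs with hs | hs
    · exact haw1 (hs.trans h)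
    · rw [h, mul_one] at hs
      exact hawt hs
  have hpsi2 : S.psi s * S.psi s = 1 := by
    rw [← hus]
    calc (a * u * a⁻¹) * (a * u * a⁻¹) = a * (u * u) * a⁻¹ := by group
      _ = 1 := by rw [(hcomm hu hu).2]; group
  obtain ⟨g, hg1, hg2⟩ := S.conj_n_of_psi hK hpsi1 hpsi2
  refine ⟨g * a, ?_⟩
  have hcm : Nat.card (V.map (MulAut.conj (g * a)).toMonoidHom) = 4 := by
    rw [← hc]
    exact (Nat.card_congr (Subgroup.equivMapOfInjective _ _ (MulAut.conj (g * a)).injective).toEquiv).symm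
  symm
  apply Subgroup.eq_of_le_of_card_ge _ (by rw [hcm, hV4card])
  have ht : S.t ∈ V.map (MulAut.conj (g * a)).toMonoidHom := ⟨v, hv, by
    change (g * a) * v * (g * a)⁻¹ = S.t
    calc (g * a) * v * (g * a)⁻¹ = g * (a * v * a⁻¹) * g⁻¹ := by group
      _ = g * S.t * g⁻¹ := by rw [ha]
      _ = S.t := by rw [← hg1, mul_inv_cancel_right]⟩
  have hn : S.n ∈ V.map (MulAut.conj (g * a)).toMonoidHom := ⟨u, hu, by
    change (g * a) * u * (g * a)⁻¹ = S.n
    calc (g * a) * u * (g * a)⁻¹ = g * (a * u * a⁻¹) * g⁻¹ := by group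
      _ = S.n := by rw [hus, hg2]⟩
  intro x hx
  rcases S.mem_V4.1 hx with rfl | rfl | rfl | rfl
  · exact one_mem _
  · exact ht
  · exact hn
  · exact mul_mem ht hn

include S hK in
lemma good_two [Finite R] {L : Set ℕ} (hq : 3 < Fintype.card K) (hL : (Fintype.card K + 1) / 4 ∈ L) {E V : Subgroup R} (hV : IsPGroup 2 V) (hc : 2 < Nat.card V)
    (hE : ∀ e ∈ E, ∀ v ∈ V, e * v * e⁻¹ ∈ V) : Good L E := by
  have := Fact.mk Nat.prime_two
  obtain ⟨P, hP⟩ := hV.exists_le_sylow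
  have hP8 := (S.syl2 hK P).1
  have hd : Nat.card V ∣ 8 := by
    rw [← hP8]; exact Subgroup.card_dvd_of_le hP
  have hmem : Nat.card V ∈ Nat.divisors 8 := Nat.mem_divisors.2 ⟨hd, by norm_num⟩
  have h8 : Nat.divisors 8 = {1, 2, 4, 8} := by decide
  rw [h8] at hmem
  simp only [Finset.mem_insert, Finset.mem_singleton] at hmem
  have hE' : E ≤ Subgroup.normalizer (V : Set R) := by
    intro e he
    refine Subgroup.mem_normalizer_iff.2 fun x => ⟨fun hx => hE e he x hx, fun hx => ?_⟩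
    have := hE e⁻¹ (inv_mem he) _ hx
    have e2 : e⁻¹ * (e * x * e⁻¹) * e⁻¹⁻¹ = x := by group
    rwa [e2] at this
  rcases hmem with h | h | h | h
  · omega
  · omega
  · obtain ⟨g, hg⟩ := S.four_conj hK hV h
    apply Good.of_map (g := g)
    refine ⟨S.A, ?_, Or.inr (Or.inr ⟨(S.torus_A hK hq).cyc, by rw [S.card_A hK]; exact hL⟩)⟩
    have key : ∀ e ∈ E, ∀ v ∈ S.V4, (g * e * g⁻¹) * v * (g * e * g⁻¹)⁻¹ ∈ S.V4 := by
      intro e he v hv
      rw [← hg] at hv ⊢
      obtain ⟨u, hu, rfl⟩ := hv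
      refine ⟨e * u * e⁻¹, hE e he u hu, ?_⟩
      change g * (e * u * e⁻¹) * g⁻¹ = (g * e * g⁻¹) * (g * u * g⁻¹) * (g * e * g⁻¹)⁻¹
      group
    rintro _ ⟨e, he, rfl⟩
    apply S.norm_A_of_V4 hK
    · exact key e he
    · intro v hv
      have := key e⁻¹ (inv_mem he) v hv
      have e3 : (g * e⁻¹ * g⁻¹) * v * (g * e⁻¹ * g⁻¹)⁻¹ = (g * e * g⁻¹)⁻¹ * v * (g * e * g⁻¹) := by group
      rwa [e3] at this
  · have : V = P := Subgroup.eq_of_le_of_card_ge hP (by rw [h, hP8])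
    exact ⟨V, hE', Or.inl ⟨P, this⟩⟩

include S hK in
lemma good_of_elem (hq : 3 < Fintype.card K) {E V : Subgroup R} {p : ℕ} (hp : p.Prime) (hne : V ≠ ⊥) (hab : ∀ x ∈ V, ∀ y ∈ V, x * y = y * x)
    (hexp : ∀ x ∈ V, x ^ p = 1) (hE : ∀ e ∈ E, ∀ v ∈ V, e * v * e⁻¹ ∈ V) (h2 : p ≠ 2) : Good (Lset (Fintype.card K) (3 ^ (m + 1))) E := by
  have hfin := S.finite_R
  by_cases h3 : p = 3
  · subst h3
    exact S.good_three hK _ (fun x => ⟨1, Subtype.ext (by rw [pow_one]; exact hexp x x.2)⟩) hne hE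
  · have hpR : p ∣ Nat.card R := by
      obtain ⟨v, hv, hv1⟩ : ∃ v ∈ V, v ≠ 1 := by
        by_contra h
        apply hne
        rw [Subgroup.eq_bot_iff_forall]
        intro x hx
        by_contra hx1
        exact h ⟨x, hx, hx1⟩
      have := Fact.mk hp
      rw [← orderOf_eq_prime (hexp v hv) hv1]
      exact orderOf_dvd_natCard v
    obtain ⟨T, C, hT, hL, hpT⟩ := S.exists_torus hK hq hp h2 h3 hpR
    exact good_torus hT hL hp hpT hne hab hexp hE

include S hK in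
/-- solvable subgroups are local -/
theorem solvable_good (hq : 3 < Fintype.card K) {E : Subgroup R} (hs : Group.IsSolvable E) : Good (Lset (Fintype.card K) (3 ^ (m + 1))) E := by
  have hfin := S.finite_R
  have h2f := Fact.mk Nat.prime_two
  have hLA : (Fintype.card K + 1) / 4 ∈ Lset (Fintype.card K) (3 ^ (m + 1)) := Or.inr (Or.inl rfl)
  by_cases hE : E = ⊥
  · subst hE
    exact ⟨_, bot_le, Or.inl ⟨default, rfl⟩⟩
  obtain ⟨p, hp, V, hVE, hV1, hVab, hVexp, hVn⟩ := exists_elem_abelian E hs hE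
  by_cases hp2 : p = 2
  swap
  · exact S.good_of_elem hK hq hp hV1 hVab hVexp hVn hp2
  subst hp2
  have hV2 : IsPGroup 2 V := fun x => ⟨1, Subtype.ext (by rw [pow_one]; exact hVexp x x.2)⟩
  by_cases hVc : 2 < Nat.card V
  · exact S.good_two hK hq hLA hV2 hVc hVn
  -- `V` has order two
  obtain ⟨v, hv, hv1⟩ : ∃ v ∈ V, v ≠ 1 := by
    by_contra h
    apply hV1
    rw [Subgroup.eq_bot_iff_forall]
    intro x hx
    by_contra hx1
    exact h ⟨x, hx, hx1⟩
  have hVv : ∀ w ∈ V, w ≠ 1 → w = v := by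
    intro w hw hw1
    by_contra hwv
    have h1 : ({1, v, w} : Set R) ⊆ V := by
      rintro x (rfl | rfl | rfl)
      · exact one_mem _
      · exact hv
      · exact hw
    have h2 := Set.ncard_le_ncard h1 (Set.toFinite _)
    rw [Set.ncard_insert_of_notMem (by
      simp only [Set.mem_insert_iff, Set.mem_singleton_iff, not_or]
      exact ⟨hv1.symm, hw1.symm⟩), Set.ncard_pair (Ne.symm hwv), ← Nat.card_coe_set_eq] at h2
    exact hVc (by
      have h3 : 2 + 1 ≤ Nat.card V := h2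
      omega)
  have hEv : ∀ e ∈ E, e * v = v * e := by
    intro e he
    have h1 := hVv _ (hVn e he v hv) (by rw [Ne, conj_eq_one_iff]; exact hv1)
    rwa [mul_inv_eq_iff_eq_mul] at h1
  obtain ⟨g, hg⟩ := S.conj_t hK hv1 (by
    have := hVexp v hv
    rwa [sq] at this)
  apply Good.of_map (g := g)
  -- the conjugate of `E` centralizes `t`
  set F := E.map (MulAut.conj g).toMonoidHom with hF
  have hFs : Group.IsSolvable F := Group.isSolvable_of_surjective (f := (Subgroup.equivMapOfInjective E (MulAut.conj g).toMonoidHom (MulAut.conj g).injective).toMonoidHom)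
    (Subgroup.equivMapOfInjective E (MulAut.conj g).toMonoidHom (MulAut.conj g).injective).surjective
  have hFt : ∀ f ∈ F, f * S.t = S.t * f := by
    rintro _ ⟨e, he, rfl⟩
    rw [← hg]
    change (g * e * g⁻¹) * (g * v * g⁻¹) = (g * v * g⁻¹) * (g * e * g⁻¹)
    calc (g * e * g⁻¹) * (g * v * g⁻¹) = g * (e * v) * g⁻¹ := by group
      _ = _ := by rw [hEv e he]; group
  set D := (dblHom F S.t S.t_mul_t hFt).range with hD
  have hDs : Group.IsSolvable D := solvable_dbl hFs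
  have hFD : F ≤ D := fun f hf => mem_dbl.2 ⟨f, hf, Or.inl rfl⟩
  have htD : S.t ∈ D := mem_dbl.2 ⟨1, one_mem _, Or.inr (one_mul _).symm⟩
  have hGs : Group.IsSolvable ↥(D ⊓ S.psi.range) := Group.isSolvable_of_isSolvable_injective (Subgroup.inclusion_injective (inf_le_left : D ⊓ S.psi.range ≤ D))
  -- decomposing elements of `F`
  have hdec : ∀ f ∈ F, ∃ y ∈ D ⊓ S.psi.range, f = y ∨ f = S.t * y := by
    intro f hf
    obtain ⟨s, h | h⟩ := S.cent_cases (hFt f hf).symm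
    · exact ⟨S.psi s, ⟨by rw [← h]; exact hFD hf, ⟨s, rfl⟩⟩, Or.inl h⟩
    · refine ⟨S.psi s, ⟨?_, ⟨s, rfl⟩⟩, Or.inr h⟩
      have h1 : S.psi s = S.t * f := by rw [h, ← mul_assoc, t_mul_t, one_mul]
      rw [h1]
      exact mul_mem htD (hFD hf)
  by_cases hG : D ⊓ S.psi.range = ⊥
  · refine ⟨S.E8, ?_, Or.inl ⟨S.sylE hK, (S.coe_sylE hK).symm⟩⟩
    refine le_trans ?_ Subgroup.le_normalizer
    intro f hf
    obtain ⟨y, hy, h⟩ := hdec f hf
    rw [hG, Subgroup.mem_bot] at hy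
    rcases h with h | h
    · rw [h, hy]; exact one_mem _
    · rw [h, hy, mul_one]; exact S.t_mem_E8
  obtain ⟨p, hp, W, hWG, hW1, hWab, hWexp, hWn⟩ := exists_elem_abelian _ hGs hG
  have hWt : ∀ w ∈ W, w * S.t = S.t * w := by
    intro w hw
    obtain ⟨s, rfl⟩ := (hWG hw).2
    exact (S.t_comm_psi s).symm
  have hFW : ∀ f ∈ F, ∀ w ∈ W, f * w * f⁻¹ ∈ W := by
    intro f hf w hw
    obtain ⟨y, hy, rfl | rfl⟩ := hdec f hf
    · exact hWn _ hy w hw
    · have h1 := hWt _ (hWn _ hy w hw)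
      have h2 : S.t * y * w * (S.t * y)⁻¹ = S.t * (y * w * y⁻¹) * S.t⁻¹ := by group
      rw [h2, ← h1, mul_inv_cancel_right]
      exact hWn _ hy w hw
  by_cases hp2 : p = 2
  swap
  · exact S.good_of_elem hK hq hp hW1 hWab hWexp hFW hp2
  subst hp2
  obtain ⟨w, hw, hw1⟩ : ∃ w ∈ W, w ≠ 1 := by
    by_contra h
    apply hW1
    rw [Subgroup.eq_bot_iff_forall]
    intro x hx
    by_contra hx1
    exact h ⟨x, hx, hx1⟩
  have hwt : w ≠ S.t := by
    rintro rfl
    obtain ⟨s, hs⟩ := (hWG hw).2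
    exact S.t_ne_psi s hs.symm
  have hsqW : ∀ x ∈ W, x * x = 1 := fun x hx => by
    have := hWexp x hx
    rwa [sq] at this
  refine S.good_two hK hq hLA (V := (dblHom W S.t S.t_mul_t hWt).range) ?_ ?_ ?_
  · rintro ⟨x, hx⟩
    refine ⟨1, Subtype.ext ?_⟩
    change x ^ 2 ^ 1 = 1
    rw [pow_one, sq]
    obtain ⟨y, hy, rfl | rfl⟩ := mem_dbl.1 hx
    · exact hsqW _ hy
    · calc y * S.t * (y * S.t) = y * (S.t * y) * S.t := by group
        _ = y * (y * S.t) * S.t := by rw [hWt y hy]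
        _ = (y * y) * (S.t * S.t) := by group
        _ = 1 := by rw [hsqW y hy, t_mul_t, one_mul]
  · have h1 : ({1, S.t, w} : Set R) ⊆ (dblHom W S.t S.t_mul_t hWt).range := by
      rintro x (rfl | rfl | rfl)
      · exact one_mem _
      · exact mem_dbl.2 ⟨1, one_mem _, Or.inr (one_mul _).symm⟩
      · exact mem_dbl.2 ⟨_, hw, Or.inl rfl⟩
    have h2 := Set.ncard_le_ncard h1 (Set.toFinite _)
    rw [Set.ncard_insert_of_notMem (by
      simp only [Set.mem_insert_iff, Set.mem_singleton_iff, not_or]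
      exact ⟨S.t_ne_one.symm, hw1.symm⟩), Set.ncard_pair (Ne.symm hwt), ← Nat.card_coe_set_eq] at h2
    have h3 : 2 + 1 ≤ Nat.card (dblHom W S.t S.t_mul_t hWt).range := h2
    omega
  · intro f hf x hx
    obtain ⟨y, hy, rfl | rfl⟩ := mem_dbl.1 hx
    · exact mem_dbl.2 ⟨_, hFW f hf _ hy, Or.inl rfl⟩
    · refine mem_dbl.2 ⟨_, hFW f hf _ hy, Or.inr ?_⟩
      have h3 : S.t * f⁻¹ = f⁻¹ * S.t := by
        have := hFt f⁻¹ (inv_mem hf)
        exact this.symm
      calc f * (y * S.t) * f⁻¹ = f * y * (S.t * f⁻¹) := by group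
        _ = _ := by rw [h3]; group

end RS

end Cfsg.Agent.Ree
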