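import Cfsg.Agent.Ree.Tor4

set_option autoImplicit false
set_option maxHeartbeats 1000000

/-!
A module for the centralizer of an involution, giving large groups with controlled element orders.
-/

namespace Cfsg.Agent.Ree

open Matrix

/-- every finite group is isomorphic to a group in the lowest universe -/
lemma exists_type_zero (X : Type*) [Group X] [Finite X] : ∃ (H : Type) (_ : Group H) (_ : Fintype H), Nonempty (H ≃* X) := by
  have := Fintype.ofFinite X
  let e := Fintype.equivFin X
  exact ⟨Fin (Fintype.card X), e.symm.group, inferInstance, ⟨@Equiv.mulEquiv _ _ e.symm _⟩⟩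

lemma fix_aux {K : Type*} [Field K] {a b c d a' b' c' d' ε : K} (h1 : a * d - b * c = 1) (h2 : a' * d' - b' * c' = 1) (hε : ε * ε = 1)
    {M : Matrix (Fin 2) (Fin 2) K} (h : ε • (!![a, b; c, d] * M * !![a', c'; b', d']) = M) : ((a + d) - ε * (a' + d')) • M = 0 := by
  have hG : !![d, -b; -c, a] * !![a, b; c, d] = 1 := by
    ext i j
    fin_cases i <;> fin_cases j <;> simp [Matrix.mul_apply, Fin.sum_univ_two] <;> first | linear_combination h1 | ring
  have hH : !![a', c'; b', d'] * !![d', -c'; -b', a'] = 1 := by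
    ext i j
    fin_cases i <;> fin_cases j <;> simp [Matrix.mul_apply, Fin.sum_univ_two] <;> first | linear_combination h2 | ring
  have e1 : !![a, b; c, d] * M = ε • (M * !![d', -c'; -b', a']) := by
    calc !![a, b; c, d] * M = (ε * ε) • (!![a, b; c, d] * M * (!![a', c'; b', d'] * !![d', -c'; -b', a'])) := by
          rw [hε, hH, one_smul, Matrix.mul_one]
      _ = ε • ((ε • (!![a, b; c, d] * M * !![a', c'; b', d'])) * !![d', -c'; -b', a']) := by
          rw [Matrix.smul_mul, smul_smul, Matrix.mul_assoc (!![a, b; c, d] * M)]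
      _ = _ := by rw [h]
  have e2 : !![d, -b; -c, a] * M = ε • (M * !![a', c'; b', d']) := by
    calc !![d, -b; -c, a] * M = !![d, -b; -c, a] * (ε • (!![a, b; c, d] * M * !![a', c'; b', d'])) := by rw [h]
      _ = ε • ((!![d, -b; -c, a] * !![a, b; c, d]) * M * !![a', c'; b', d']) := by
          rw [Matrix.mul_smul]
          simp only [Matrix.mul_assoc]
      _ = _ := by rw [hG, Matrix.one_mul]
  have e3 : !![a, b; c, d] + !![d, -b; -c, a] = (a + d) • (1 : Matrix (Fin 2) (Fin 2) K) := by
    ext i j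
    fin_cases i <;> fin_cases j <;> simp <;> ring
  have e4 : !![d', -c'; -b', a'] + !![a', c'; b', d'] = (a' + d') • (1 : Matrix (Fin 2) (Fin 2) K) := by
    ext i j
    fin_cases i <;> fin_cases j <;> simp <;> ring
  have e5 : (a + d) • M = (ε * (a' + d')) • M := by
    calc (a + d) • M = ((a + d) • (1 : Matrix (Fin 2) (Fin 2) K)) * M := by rw [Matrix.smul_mul, Matrix.one_mul]
      _ = ε • (M * ((a' + d') • (1 : Matrix (Fin 2) (Fin 2) K))) := by rw [← e3, ← e4, Matrix.add_mul, e1, e2, Matrix.mul_add, smul_add]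
      _ = _ := by rw [Matrix.mul_smul, Matrix.mul_one, smul_smul]
  rw [sub_smul, e5, sub_self]

namespace RS

variable {K : Type*} [Field K] {τ : Tits K} {R : Type*} [Group R] (S : RS τ R)

/-- `c` is represented by the pair `(g, ε)` -/
def Rep (c : R) (g : Matrix.SpecialLinearGroup (Fin 2) K) (ε : K) : Prop := (c = S.psi g ∧ ε = 1) ∨ (c = S.t * S.psi g ∧ ε = -1)

/-- the action of pairs on matrices -/
def act (τ : Tits K) (g : Matrix.SpecialLinearGroup (Fin 2) K) (ε : K) (M : Matrix (Fin 2) (Fin 2) K) : Matrix (Fin 2) (Fin 2) K :=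
  ε • ((g : Matrix (Fin 2) (Fin 2) K) * M * ((g : Matrix (Fin 2) (Fin 2) K).map τ.φ)ᵀ)

lemma act_mul (g h : Matrix.SpecialLinearGroup (Fin 2) K) (ε δ : K) (M : Matrix (Fin 2) (Fin 2) K) :
    act τ (g * h) (ε * δ) M = act τ g ε (act τ h δ M) := by
  have e : ((g * h : Matrix.SpecialLinearGroup (Fin 2) K) : Matrix (Fin 2) (Fin 2) K) = (g : Matrix (Fin 2) (Fin 2) K) * (h : Matrix (Fin 2) (Fin 2) K) :=
    Matrix.SpecialLinearGroup.coe_mul g h
  unfold act
  rw [e, Matrix.map_mul, transpose_mul, Matrix.mul_smul, Matrix.smul_mul, smul_smul]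
  simp only [Matrix.mul_assoc]

lemma act_one (M : Matrix (Fin 2) (Fin 2) K) : act τ 1 1 M = M := by
  have e : ((1 : Matrix.SpecialLinearGroup (Fin 2) K) : Matrix (Fin 2) (Fin 2) K) = 1 := Matrix.SpecialLinearGroup.coe_one
  unfold act
  rw [e, Matrix.map_one _ (map_zero _) (map_one _)]
  simp

lemma act_neg (g : Matrix.SpecialLinearGroup (Fin 2) K) (ε : K) (M : Matrix (Fin 2) (Fin 2) K) : act τ (-g) ε M = act τ g ε M := by
  unfold act
  have h : ((-g : Matrix.SpecialLinearGroup (Fin 2) K) : Matrix (Fin 2) (Fin 2) K) = -(g : Matrix (Fin 2) (Fin 2) K) := rfl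
  have h2 : (-(g : Matrix (Fin 2) (Fin 2) K)).map τ.φ = -((g : Matrix (Fin 2) (Fin 2) K).map τ.φ) := by
    ext i j
    simp
  rw [h, h2, transpose_neg, Matrix.neg_mul, Matrix.neg_mul, Matrix.mul_neg, neg_neg]

lemma act_add (g : Matrix.SpecialLinearGroup (Fin 2) K) (ε : K) (M N : Matrix (Fin 2) (Fin 2) K) : act τ g ε (M + N) = act τ g ε M + act τ g ε N := by
  unfold act
  rw [Matrix.mul_add, Matrix.add_mul, smul_add]

variable {S}

lemma Rep.unique {c : R} {g g' : Matrix.SpecialLinearGroup (Fin 2) K} {ε ε' : K} (h : S.Rep c g ε) (h' : S.Rep c g' ε') :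
    ε = ε' ∧ (g = g' ∨ g = -g') := by
  have key : ∀ g g' : Matrix.SpecialLinearGroup (Fin 2) K, S.psi g ≠ S.t * S.psi g' := by
    intro g g' h
    apply S.t_ne_psi (g * g'⁻¹)
    rw [map_mul, map_inv, h, mul_inv_cancel_right]
  rcases h with ⟨h1, rfl⟩ | ⟨h1, rfl⟩ <;> rcases h' with ⟨h2, rfl⟩ | ⟨h2, rfl⟩
  · exact ⟨rfl, S.psi_eq_psi.1 (h1.symm.trans h2)⟩
  · exact absurd (h1.symm.trans h2) (key _ _)
  · exact absurd (h2.symm.trans h1) (key _ _)
  · exact ⟨rfl, S.psi_eq_psi.1 (mul_left_cancel (h1.symm.trans h2))⟩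

lemma Rep.mul {c c' : R} {g g' : Matrix.SpecialLinearGroup (Fin 2) K} {ε ε' : K} (h : S.Rep c g ε) (h' : S.Rep c' g' ε') :
    S.Rep (c * c') (g * g') (ε * ε') := by
  have ht := S.t_mul_t
  have hc := S.t_comm_psi g
  rcases h with ⟨h1, rfl⟩ | ⟨h1, rfl⟩ <;> rcases h' with ⟨h2, rfl⟩ | ⟨h2, rfl⟩
  · left; exact ⟨by rw [h1, h2, map_mul], by ring⟩
  · right; exact ⟨by rw [h1, h2, map_mul, ← mul_assoc, ← hc, mul_assoc], by ring⟩
  · right; exact ⟨by rw [h1, h2, map_mul, mul_assoc], by ring⟩
  · left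
    refine ⟨?_, by ring⟩
    rw [h1, h2, map_mul]
    calc S.t * S.psi g * (S.t * S.psi g') = S.t * (S.psi g * S.t) * S.psi g' := by group
      _ = S.t * (S.t * S.psi g) * S.psi g' := by rw [hc]
      _ = (S.t * S.t) * (S.psi g * S.psi g') := by group
      _ = _ := by rw [ht, one_mul]

variable (S)

lemma Rep.one : S.Rep 1 1 1 := Or.inl ⟨(map_one _).symm, rfl⟩

lemma exists_rep [Finite K] (c : Subgroup.centralizer {S.t}) : ∃ p : Matrix.SpecialLinearGroup (Fin 2) K × K, S.Rep (c : R) p.1 p.2 := by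
  obtain ⟨s, h | h⟩ := S.cent_cases (Subgroup.mem_centralizer_singleton_iff.1 c.2).symm
  · exact ⟨(s, 1), Or.inl ⟨h, rfl⟩⟩
  · exact ⟨(s, -1), Or.inr ⟨h, rfl⟩⟩

/-- the action of the centralizer of `t` on matrices -/
noncomputable def gact [Finite K] (c : Subgroup.centralizer {S.t}) (M : Matrix (Fin 2) (Fin 2) K) : Matrix (Fin 2) (Fin 2) K :=
  act τ (Classical.choose (S.exists_rep c)).1 (Classical.choose (S.exists_rep c)).2 M

lemma gact_eq [Finite K] {c : Subgroup.centralizer {S.t}} {g : Matrix.SpecialLinearGroup (Fin 2) K} {ε : K} (h : S.Rep (c : R) g ε)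
    (M : Matrix (Fin 2) (Fin 2) K) : S.gact c M = act τ g ε M := by
  unfold gact
  obtain ⟨h1, h2 | h2⟩ := (Classical.choose_spec (S.exists_rep c)).unique h
  · rw [h1, h2]
  · rw [h1, h2, act_neg]

lemma gact_mul [Finite K] (c d : Subgroup.centralizer {S.t}) (M : Matrix (Fin 2) (Fin 2) K) : S.gact (c * d) M = S.gact c (S.gact d M) := by
  obtain ⟨p, hp⟩ := S.exists_rep c
  obtain ⟨q, hq⟩ := S.exists_rep d
  rw [S.gact_eq (c := c * d) (hp.mul hq), S.gact_eq hp, S.gact_eq hq, act_mul]

lemma gact_one [Finite K] (M : Matrix (Fin 2) (Fin 2) K) : S.gact 1 M = M := by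
  rw [S.gact_eq (c := 1) (Rep.one S), act_one]

lemma gact_add [Finite K] (c : Subgroup.centralizer {S.t}) (M N : Matrix (Fin 2) (Fin 2) K) : S.gact c (M + N) = S.gact c M + S.gact c N := by
  obtain ⟨p, hp⟩ := S.exists_rep c
  rw [S.gact_eq hp, S.gact_eq hp, S.gact_eq hp, act_add]

/-- the action on `k` copies -/
noncomputable def actHom [Finite K] (k : ℕ) : Subgroup.centralizer {S.t} →* MulAut (Multiplicative (Fin k → Matrix (Fin 2) (Fin 2) K)) where
  toFun c :=
    { toFun := fun v => Multiplicative.ofAdd (fun i => S.gact c (Multiplicative.toAdd v i))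
      invFun := fun v => Multiplicative.ofAdd (fun i => S.gact c⁻¹ (Multiplicative.toAdd v i))
      left_inv := fun v => by
        apply Multiplicative.toAdd.injective
        funext i
        change S.gact c⁻¹ (S.gact c (Multiplicative.toAdd v i)) = _
        rw [← gact_mul, inv_mul_cancel, gact_one]
      right_inv := fun v => by
        apply Multiplicative.toAdd.injective
        funext i
        change S.gact c (S.gact c⁻¹ (Multiplicative.toAdd v i)) = _
        rw [← gact_mul, mul_inv_cancel, gact_one]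
      map_mul' := fun v w => by
        apply Multiplicative.toAdd.injective
        funext i
        exact S.gact_add c _ _ }
  map_one' := by
    ext v : 1
    apply Multiplicative.toAdd.injective
    funext i
    exact S.gact_one _
  map_mul' := fun c d => by
    ext v : 1
    apply Multiplicative.toAdd.injective
    funext i
    exact S.gact_mul c d _

lemma actHom_apply [Finite K] (k : ℕ) (c : Subgroup.centralizer {S.t}) (v : Multiplicative (Fin k → Matrix (Fin 2) (Fin 2) K)) (i : Fin k) :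
    Multiplicative.toAdd (S.actHom k c v) i = S.gact c (Multiplicative.toAdd v i) := rfl

/-- fixed points -/
lemma fix_cases (τ : Tits K) {g : Matrix.SpecialLinearGroup (Fin 2) K} {ε : K} (hε : ε = 1 ∨ ε = -1) {M : Matrix (Fin 2) (Fin 2) K} (hM : M ≠ 0)
    (h : act τ g ε M = M) : (g 0 0 + g 1 1 = 0) ∨ (ε = 1 ∧ (g 0 0 + g 1 1) ^ 2 = 1) := by
  have hdet := det_eq g
  have hε2 : ε * ε = 1 := by rcases hε with rfl | rfl <;> ring
  have hφε : τ.φ ε = ε := by rcases hε with rfl | rfl <;> simp
  have hdet' : τ.φ (g 0 0) * τ.φ (g 1 1) - τ.φ (g 0 1) * τ.φ (g 1 0) = 1 := by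
    rw [← map_mul, ← map_mul, ← map_sub, hdet, map_one]
  have hg : (g : Matrix (Fin 2) (Fin 2) K) = !![g 0 0, g 0 1; g 1 0, g 1 1] := Matrix.eta_fin_two _
  have hg' : ((g : Matrix (Fin 2) (Fin 2) K).map τ.φ)ᵀ = !![τ.φ (g 0 0), τ.φ (g 1 0); τ.φ (g 0 1), τ.φ (g 1 1)] := by
    ext i j
    fin_cases i <;> fin_cases j <;> rfl
  unfold act at h
  rw [hg', hg] at h
  have h1 := fix_aux hdet hdet' hε2 h
  rw [smul_eq_zero, or_iff_left hM] at h1
  have h2 : g 0 0 + g 1 1 = ε * τ.φ (g 0 0 + g 1 1) := by rw [map_add]; linear_combination h1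
  have h3 := congrArg τ.φ h2
  rw [map_mul, hφε, τ.hφ] at h3
  generalize g 0 0 + g 1 1 = x at *
  rw [h3] at h2
  have h4 : x * (x ^ 2 - 1) = 0 := by linear_combination -h2 - x ^ 3 * hε2
  rcases mul_eq_zero.1 h4 with h5 | h5
  · left; exact h5
  · right
    have h6 : x ^ 2 = 1 := by linear_combination h5
    have h7 : (x - 1) * (x + 1) = 0 := by linear_combination h6
    have h8 : τ.φ x = x := by
      rcases mul_eq_zero.1 h7 with h8 | h8
      · have : x = 1 := by linear_combination h8
        rw [this, map_one]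
      · have : x = -1 := by linear_combination h8
        rw [this, map_neg, map_one]
    refine ⟨?_, h6⟩
    have hx : x ≠ 0 := by
      rintro rfl
      simp at h6
    apply mul_right_cancel₀ hx
    have : x ^ 3 = x := by linear_combination x * h6
    rw [one_mul]
    rw [h8, this] at h3
    exact h3.symm

/-- elements with nonzero fixed points have order at most three -/
lemma rep_cases [Finite K] {c : R} {g : Matrix.SpecialLinearGroup (Fin 2) K} {ε : K} (hr : S.Rep c g ε)
    (h : (g 0 0 + g 1 1 = 0) ∨ (ε = 1 ∧ (g 0 0 + g 1 1) ^ 2 = 1)) : c ^ 2 = 1 ∨ c ^ 3 = 1 := by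
  have hdet := det_eq g
  have h3 := τ.h3
  rcases h with h | ⟨h1, h2⟩
  · left
    have hg : g * g = -1 := by
      refine sl_ext ?_ ?_ ?_ ?_ <;> rw [mul_entry, neg_entry] <;> simp
      · linear_combination g 0 0 * h - hdet
      · linear_combination g 0 1 * h
      · linear_combination g 1 0 * h
      · linear_combination g 1 1 * h - hdet
    have hp : S.psi g * S.psi g = 1 := by rw [← map_mul, hg]; exact S.psi_eq_one_iff.2 (Or.inr rfl)
    rcases hr with ⟨rfl, -⟩ | ⟨rfl, -⟩
    · rw [sq, hp]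
    · have hc : Commute S.t (S.psi g) := S.t_comm_psi g
      rw [hc.mul_pow, sq, sq, hp, t_mul_t, one_mul]
  · right
    have hc : c = S.psi g := by
      rcases hr with ⟨h, -⟩ | ⟨-, h⟩
      · exact h
      · exfalso
        rw [h1] at h
        have : (2 : K) = 0 := by linear_combination h
        exact τ.two_ne_zero' this
    have h4 : (g 0 0 + g 1 1 - 1) * (g 0 0 + g 1 1 + 1) = 0 := by linear_combination h2
    rw [hc, ← map_pow]
    apply S.psi_eq_one_iff.2
    rw [pow_succ, sq]
    generalize hx : g 0 0 + g 1 1 = x at h4 h2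
    have hd : g 1 1 = x - g 0 0 := by linear_combination hx
    rcases mul_eq_zero.1 h4 with h5 | h5
    · right
      have hx1 : x = 1 := by linear_combination h5
      subst hx1
      rw [hd] at hdet
      refine sl_ext ?_ ?_ ?_ ?_ <;> rw [mul_entry, mul_entry, mul_entry, neg_entry] <;> simp <;> rw [hd]
      · linear_combination -(g 0 0 + 1) * hdet
      · linear_combination -(g 0 1) * hdet
      · linear_combination -(g 1 0) * hdet
      · linear_combination -(2 - g 0 0) * hdet
    · left
      have hx1 : x = -1 := by linear_combination h5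
      subst hx1
      rw [hd] at hdet
      refine sl_ext ?_ ?_ ?_ ?_ <;> rw [mul_entry, mul_entry, mul_entry] <;> simp <;> rw [hd]
      · linear_combination -(g 0 0 - 1) * hdet
      · linear_combination -(g 0 1) * hdet
      · linear_combination -(g 1 0) * hdet
      · linear_combination (2 + g 0 0) * hdet

end RS

end Cfsg.Agent.Ree
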