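import Cfsg.Agent.Ree.Spec

set_option autoImplicit false
set_option maxHeartbeats 1000000

/-!
Large groups with the element orders of the centralizer of an involution, and nine.
-/

namespace Cfsg.Agent.Ree

open Matrix

namespace RS

variable {K : Type*} [Field K] {τ : Tits K} {R : Type*} [Group R] (S : RS τ R)

/-- the module -/
abbrev Vk (K : Type*) (k : ℕ) : Type _ := Multiplicative (Fin k → Matrix (Fin 2) (Fin 2) K)

/-- the semidirect product -/
abbrev XX [Finite K] (k : ℕ) : Type _ := Vk K k ⋊[S.actHom k] Subgroup.centralizer {S.t}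

lemma cube_V (τ : Tits K) {k : ℕ} (v : Vk K k) : v ^ 3 = 1 := by
  apply Multiplicative.toAdd.injective
  rw [toAdd_pow, toAdd_one]
  funext i
  change (3 : ℕ) • (Multiplicative.toAdd v i) = 0
  ext a b
  rw [Matrix.smul_apply, nsmul_eq_mul, Matrix.zero_apply]
  have := τ.h3
  push_cast
  rw [this, zero_mul]

lemma right_pow [Finite K] {k : ℕ} (x : S.XX k) (n : ℕ) : (x ^ n).right = x.right ^ n :=
  map_pow (SemidirectProduct.rightHom : S.XX k →* Subgroup.centralizer {S.t}) x n

/-- the orders of the elements -/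
lemma order_XX [Finite K] {k : ℕ} (x : S.XX k) : orderOf x = orderOf x.right ∨ orderOf x ∣ 6 ∨ orderOf x ∣ 9 := by
  set n := orderOf x.right with hn
  have h1 : (x ^ n).right = 1 := by rw [right_pow, hn, pow_orderOf_eq_one]
  by_cases h2 : x ^ n = 1
  · left
    apply Nat.dvd_antisymm
    · exact orderOf_dvd_of_pow_eq_one h2
    · rw [hn]
      apply orderOf_dvd_of_pow_eq_one
      rw [← right_pow, pow_orderOf_eq_one]
      rfl
  · right
    -- the left component is a nonzero fixed vector
    have h3 : (x ^ n).left ≠ 1 := by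
      intro h
      apply h2
      exact SemidirectProduct.ext h h1
    have h4 : x * x ^ n = x ^ n * x := ((Commute.refl x).pow_right n).eq
    have h5 : S.actHom k x.right (x ^ n).left = (x ^ n).left := by
      have h6 := congrArg SemidirectProduct.left h4
      rw [SemidirectProduct.mul_left, SemidirectProduct.mul_left, h1, map_one, MulAut.one_apply, mul_comm] at h6
      exact mul_right_cancel h6
    obtain ⟨i, hi⟩ : ∃ i, Multiplicative.toAdd (x ^ n).left i ≠ 0 := by
      by_contra hcon
      push Not at hcon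
      apply h3
      apply Multiplicative.toAdd.injective
      funext i
      exact hcon i
    have h7 : S.gact x.right (Multiplicative.toAdd (x ^ n).left i) = Multiplicative.toAdd (x ^ n).left i := by
      rw [← actHom_apply, h5]
    obtain ⟨⟨g, ε⟩, hg⟩ := S.exists_rep x.right
    rw [S.gact_eq hg] at h7
    have hε : ε = 1 ∨ ε = -1 := by
      rcases hg with ⟨-, h⟩ | ⟨-, h⟩
      · left; exact h
      · right; exact h
    have h8 := S.rep_cases hg (fix_cases τ hε hi h7)
    have h9 : x ^ (n * 3) = 1 := by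
      rw [pow_mul]
      have h10 : x ^ n = SemidirectProduct.inl (x ^ n).left := by
        apply SemidirectProduct.ext
        · rw [SemidirectProduct.left_inl]
        · rw [SemidirectProduct.right_inl, h1]
      rw [h10, ← map_pow, cube_V τ, map_one]
    have h11 : orderOf x ∣ n * 3 := orderOf_dvd_of_pow_eq_one h9
    have hnR : n = orderOf (x.right : R) := by rw [hn, Subgroup.orderOf_coe]
    rcases h8 with h8 | h8
    · left
      have h12 : n ∣ 2 := by rw [hnR]; exact orderOf_dvd_of_pow_eq_one h8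
      exact h11.trans (Nat.mul_dvd_mul_right h12 3)
    · right
      have h12 : n ∣ 3 := by rw [hnR]; exact orderOf_dvd_of_pow_eq_one h8
      exact h11.trans (Nat.mul_dvd_mul_right h12 3)

lemma act_apply (g : Matrix.SpecialLinearGroup (Fin 2) K) (ε : K) (M : Matrix (Fin 2) (Fin 2) K) (i j : Fin 2) :
    act τ g ε M i j = ε * ((g i 0 * M 0 0 + g i 1 * M 1 0) * τ.φ (g j 0) + (g i 0 * M 0 1 + g i 1 * M 1 1) * τ.φ (g j 1)) := by
  rw [act, Matrix.smul_apply, Matrix.mul_apply, Fin.sum_univ_two, Matrix.mul_apply, Matrix.mul_apply, Fin.sum_univ_two, Fin.sum_univ_two]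
  rfl

/-- an element of order nine -/
lemma exists_nine [Finite K] {k : ℕ} (hk : 0 < k) : ∃ x : S.XX k, orderOf x = 9 := by
  have hrep : S.Rep (S.x 0 1 0) (Tits.su 1) 1 := Or.inl ⟨(S.psi_su 1).symm, rfl⟩
  let c : Subgroup.centralizer {S.t} := ⟨S.x 0 1 0, Subgroup.mem_centralizer_singleton_iff.2 (S.t_comm_x0 1).symm⟩
  let v : Vk K k := Multiplicative.ofAdd (fun _ => !![0, 0; 0, 1])
  let x : S.XX k := ⟨v, c⟩
  have hc3 : c ^ 3 = 1 := Subtype.ext (S.x0_cube 1)
  have h3 : (x ^ 3).right = 1 := by rw [right_pow]; exact hc3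
  have h9 : x ^ 9 = 1 := by
    rw [show 9 = 3 * 3 from rfl, pow_mul]
    have h10 : x ^ 3 = SemidirectProduct.inl (x ^ 3).left := by
      apply SemidirectProduct.ext
      · rw [SemidirectProduct.left_inl]
      · rw [SemidirectProduct.right_inl, h3]
    rw [h10, ← map_pow, cube_V τ, map_one]
  refine ⟨x, ?_⟩
  have hd : orderOf x ∈ Nat.divisors 9 := Nat.mem_divisors.2 ⟨orderOf_dvd_of_pow_eq_one h9, by norm_num⟩
  have hd9 : Nat.divisors 9 = {1, 3, 9} := by decide
  rw [hd9] at hd
  simp only [Finset.mem_insert, Finset.mem_singleton] at hd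
  have hne : x ^ 3 ≠ 1 := by
    intro h
    have h1 := congrArg SemidirectProduct.left h
    rw [pow_succ, sq, SemidirectProduct.mul_left, SemidirectProduct.mul_left, SemidirectProduct.one_left] at h1
    have h2 := congrFun (congrArg Multiplicative.toAdd h1) ⟨0, hk⟩
    have h4 : (!![0, 0; 0, 1] : Matrix (Fin 2) (Fin 2) K) + S.gact c !![0, 0; 0, 1] + S.gact (c * c) !![0, 0; 0, 1] = 0 := h2
    rw [gact_mul, S.gact_eq (c := c) hrep, S.gact_eq (c := c) hrep] at h4
    have h5 : act τ (Tits.su 1) 1 !![0, 0; 0, 1] = !![1, 1; 1, 1] := by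
      ext i j
      rw [act_apply]
      fin_cases i <;> fin_cases j <;> simp [Tits.su]
    rw [h5] at h4
    have h6 := congrFun (congrFun h4 0) 0
    rw [Matrix.add_apply, Matrix.add_apply, act_apply] at h6
    simp [Tits.su] at h6
    have h7 := τ.h3
    have h8 : (1 : K) = 0 := by linear_combination 2 * h7 - h6
    exact one_ne_zero h8
  rcases hd with h | h | h
  · exfalso
    apply hne
    rw [orderOf_eq_one_iff.1 h, one_pow]
  · exfalso
    apply hne
    rw [← h, pow_orderOf_eq_one]
  · exact h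

variable [Fintype K] {m : ℕ} (hK : Fintype.card K = 3 ^ (2 * m + 1))

/-- elements of the centralizer as elements of the semidirect product -/
lemma order_inr {k : ℕ} (c : Subgroup.centralizer {S.t}) : orderOf (SemidirectProduct.inr c : S.XX k) = orderOf (c : R) := by
  rw [orderOf_injective (SemidirectProduct.inr : _ →* S.XX k) SemidirectProduct.inr_injective, Subgroup.orderOf_coe]

lemma lcm_rc (a b c : ℕ) : Nat.lcm (Nat.lcm a b) c = Nat.lcm (Nat.lcm a c) b := by
  rw [Nat.lcm_assoc, Nat.lcm_comm b c, ← Nat.lcm_assoc]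

include hK in
/-- all element orders are element orders of `R` -/
lemma XX_sub (hq : 3 < Fintype.card K) {k : ℕ} (x : S.XX k) : Ord (Fintype.card K) (3 ^ (m + 1)) (orderOf x) := by
  rcases S.order_XX x with h | h | h
  · rw [h, ← Subgroup.orderOf_coe]
    exact (S.orders hK hq _).1 ⟨_, rfl⟩
  · exact Or.inl h
  · exact Or.inr (Or.inl h)

include hK in
/-- the element orders occurring in the semidirect product -/
lemma XX_sup {k : ℕ} (hk : 0 < k) [Finite (S.XX k)] {d : ℕ} (hd : d ∣ 6 ∨ d ∣ 9 ∨ d ∣ Fintype.card K - 1 ∨ d ∣ (Fintype.card K + 1) / 2) :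
    ∃ x : S.XX k, orderOf x = d := by
  have c3 : (Fintype.card K + 1) / 2 = 2 * kA K := by
    have := four_kA hK
    omega
  rcases hd with h | h | h | h
  · have hc : S.t * S.x 0 1 0 ∈ Subgroup.centralizer {S.t} := Subgroup.mem_centralizer_singleton_iff.2 (by
      have h1 : Commute S.t (S.x 0 1 0) := S.t_comm_x0 1
      exact ((Commute.refl S.t).mul_right h1).symm.eq)
    rw [← S.order_tx_one, ← S.order_inr (k := k) ⟨_, hc⟩] at h
    exact exists_order_of_dvd h
  · obtain ⟨x, hx⟩ := S.exists_nine hk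
    rw [← hx] at h
    exact exists_order_of_dvd h
  · have hc : S.h (zeta K) ∈ Subgroup.centralizer {S.t} := Subgroup.mem_centralizer_singleton_iff.2 (S.t_comm_h _).symm
    rw [← S.h_order, ← S.order_inr (k := k) ⟨_, hc⟩] at h
    exact exists_order_of_dvd h
  · have hg : S.g0 ∈ S.A0 := Subgroup.mem_zpowers _
    have hc : S.g0 ∈ Subgroup.centralizer {S.t} := Subgroup.mem_centralizer_singleton_iff.2 (S.t_comm_A0 hg).symm
    rw [c3, ← S.g0_order hK, ← S.order_inr (k := k) ⟨_, hc⟩] at h
    exact exists_order_of_dvd h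

include S hK in
/-- large groups with the element orders of `R × R × R` -/
theorem spectrum (hq : 3 < Fintype.card K) (N : ℕ) : ∃ (H : Type) (_ : Group H) (_ : Fintype H), N < Fintype.card H ∧
    Set.range (orderOf : H → ℕ) = Set.range (orderOf : R × R × R → ℕ) := by
  classical
  have hfin := S.finite_R
  have hfinR := Fintype.ofFinite R
  have : Finite (S.XX (N + 1)) := Finite.of_equiv _ (SemidirectProduct.equivProd (φ := S.actHom (N + 1))).symm
  obtain ⟨H, hG, hF, ⟨e⟩⟩ := exists_type_zero (S.XX (N + 1) × R × R)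
  refine ⟨H, hG, hF, ?_, ?_⟩
  · rw [← Nat.card_eq_fintype_card, Nat.card_congr e.toEquiv, Nat.card_prod, SemidirectProduct.card]
    have h1 : N < Nat.card (Vk K (N + 1)) := by
      have h2 : Nat.card (Vk K (N + 1)) = Nat.card (Matrix (Fin 2) (Fin 2) K) ^ (N + 1) := by
        change Nat.card (Fin (N + 1) → Matrix (Fin 2) (Fin 2) K) = _
        rw [Nat.card_fun, Nat.card_fin]
      have h3 : 2 ≤ Nat.card (Matrix (Fin 2) (Fin 2) K) := Finite.one_lt_card
      rw [h2]
      calc N < N + 1 := Nat.lt_succ_self N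
        _ < 2 ^ (N + 1) := Nat.lt_two_pow_self
        _ ≤ _ := Nat.pow_le_pow_left h3 _
    have h3 : 0 < Nat.card (Subgroup.centralizer {S.t}) := Nat.card_pos
    have h4 : 0 < Nat.card (R × R) := Nat.card_pos
    calc N < Nat.card (Vk K (N + 1)) := h1
      _ = Nat.card (Vk K (N + 1)) * 1 * 1 := by ring
      _ ≤ _ := Nat.mul_le_mul (Nat.mul_le_mul_left _ h3) h4
  · ext d
    simp only [Set.mem_range]
    have hR := S.orders hK hq
    have hlcm : ∀ {k a b c : ℕ}, a ∣ k → b ∣ k → (∃ x : R, orderOf x = k) → ∃ x : R, orderOf x = Nat.lcm a b := by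
      rintro k a b c ha hb ⟨x, rfl⟩
      exact exists_order_of_dvd (Nat.lcm_dvd ha hb)
    constructor
    · rintro ⟨x, rfl⟩
      rw [← e.orderOf_eq]
      obtain ⟨y, b, c⟩ := e x
      obtain ⟨a, ha⟩ := (hR _).2 (S.XX_sub hK hq y)
      refine ⟨(a, b, c), ?_⟩
      rw [Prod.orderOf, Prod.orderOf, Prod.orderOf, Prod.orderOf]
      change Nat.lcm (orderOf a) _ = Nat.lcm (orderOf y) _
      rw [ha]
    · rintro ⟨⟨a, b, c⟩, rfl⟩
      -- it suffices to find an element of the product
      suffices h : ∃ z : S.XX (N + 1) × R × R, orderOf z = orderOf (a, b, c) by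
        obtain ⟨z, hz⟩ := h
        exact ⟨e.symm z, by rw [e.symm.orderOf_eq, hz]⟩
      rw [Prod.orderOf, Prod.orderOf]
      change ∃ z : S.XX (N + 1) × R × R, orderOf z = Nat.lcm (orderOf a) (Nat.lcm (orderOf b) (orderOf c))
      have hz : ∀ (y : S.XX (N + 1)) (u v : R), orderOf (y, u, v) = Nat.lcm (orderOf y) (Nat.lcm (orderOf u) (orderOf v)) := by
        intro y u v
        rw [Prod.orderOf, Prod.orderOf]
      have cases4 : ∀ g : R, (∃ y : S.XX (N + 1), orderOf y = orderOf g) ∨ orderOf g ∣ Fintype.card K - 3 ^ (m + 1) + 1 ∨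
          orderOf g ∣ Fintype.card K + 3 ^ (m + 1) + 1 := by
        intro g
        rcases (hR _).1 ⟨g, rfl⟩ with h | h | h | h | h | h
        · left; exact S.XX_sup hK (Nat.succ_pos _) (Or.inl h)
        · left; exact S.XX_sup hK (Nat.succ_pos _) (Or.inr (Or.inl h))
        · left; exact S.XX_sup hK (Nat.succ_pos _) (Or.inr (Or.inr (Or.inl h)))
        · left; exact S.XX_sup hK (Nat.succ_pos _) (Or.inr (Or.inr (Or.inr h)))
        · right; left; exact h
        · right; right; exact h
      have hkk : ∀ k, (k = Fintype.card K - 3 ^ (m + 1) + 1 ∨ k = Fintype.card K + 3 ^ (m + 1) + 1) → ∃ x : R, orderOf x = k := by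
        rintro k (rfl | rfl)
        · exact (hR _).2 (Or.inr (Or.inr (Or.inr (Or.inr (Or.inl dvd_rfl)))))
        · exact (hR _).2 (Or.inr (Or.inr (Or.inr (Or.inr (Or.inr dvd_rfl)))))
      have pair : ∀ (u v w : R) (k : ℕ), (k = Fintype.card K - 3 ^ (m + 1) + 1 ∨ k = Fintype.card K + 3 ^ (m + 1) + 1) → orderOf u ∣ k → orderOf v ∣ k →
          ∃ z : S.XX (N + 1) × R × R, orderOf z = Nat.lcm (Nat.lcm (orderOf u) (orderOf v)) (orderOf w) := by
        intro u v w k hk hu hv
        obtain ⟨x, hx⟩ := hkk k hk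
        rw [← hx] at hu hv
        obtain ⟨y, hy⟩ := exists_order_of_dvd (Nat.lcm_dvd hu hv)
        exact ⟨(1, y, w), by rw [hz, orderOf_one, hy, Nat.lcm_one_left]⟩
      rcases cases4 a with ⟨y, hy⟩ | ha
      · exact ⟨(y, b, c), by rw [hz, hy]⟩
      rcases cases4 b with ⟨y, hy⟩ | hb
      · exact ⟨(y, a, c), by rw [hz, hy, ← Nat.lcm_assoc, Nat.lcm_comm (orderOf b), Nat.lcm_assoc]⟩
      rcases cases4 c with ⟨y, hy⟩ | hc
      · exact ⟨(y, a, b), by rw [hz, hy, Nat.lcm_comm (orderOf c), Nat.lcm_assoc]⟩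
      rcases ha with ha | ha <;> rcases hb with hb | hb <;> rcases hc with hc | hc
      · rw [← Nat.lcm_assoc]; exact pair a b c _ (Or.inl rfl) ha hb
      · rw [← Nat.lcm_assoc]; exact pair a b c _ (Or.inl rfl) ha hb
      · rw [← Nat.lcm_assoc, lcm_rc]; exact pair a c b _ (Or.inl rfl) ha hc
      · rw [Nat.lcm_comm]; exact pair b c a _ (Or.inr rfl) hb hc
      · rw [Nat.lcm_comm]; exact pair b c a _ (Or.inl rfl) hb hc
      · rw [← Nat.lcm_assoc, lcm_rc]; exact pair a c b _ (Or.inr rfl) ha hc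
      · rw [← Nat.lcm_assoc]; exact pair a b c _ (Or.inr rfl) ha hb
      · rw [← Nat.lcm_assoc]; exact pair a b c _ (Or.inr rfl) ha hb

end RS

end Cfsg.Agent.Ree
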