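import Cfsg.Agent.Ree.Spec2
import Cfsg.Agent.Ree.Main

set_option autoImplicit false
set_option maxHeartbeats 1000000

/-!
The group with maximal element orders `6, 9, q - 1, (q + 1) / 2`.
-/

namespace Cfsg.Agent.Ree

open Matrix

namespace RS

variable {K : Type*} [Field K] {τ : Tits K} {R : Type*} [Group R] (S : RS τ R)
variable [Fintype K] {m : ℕ} (hK : Fintype.card K = 3 ^ (2 * m + 1))

include hK in
/-- orders of the elements of the centralizer of `t` -/
lemma order_cent (hq : 3 < Fintype.card K) {c : R} (hc : S.t * c = c * S.t) :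
    orderOf c ∣ 6 ∨ orderOf c ∣ 9 ∨ orderOf c ∣ Fintype.card K - 1 ∨ orderOf c ∣ (Fintype.card K + 1) / 2 := by
  have hfin := S.finite_R
  have c3 : (Fintype.card K + 1) / 2 = 2 * kA K := by
    have := four_kA hK
    omega
  obtain ⟨r, -, hr | hr⟩ := S.cent_t_conj' hc
  · rcases S.order_B hK hr with h | h | h
    · right; left
      rw [← ord_conj r c]; exact orderOf_dvd_of_pow_eq_one h
    · left
      rw [← ord_conj r c]; exact orderOf_dvd_of_pow_eq_one h
    · right; right; left
      rw [ord_conj] at h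
      exact S.order_of_H hK hq h
  · right; right; right
    rw [c3, ← ord_conj r c, orderOf_dvd_iff_pow_eq_one]
    obtain ⟨a, ha, hca⟩ := hr
    have hcomm : Commute S.t a := S.t_comm_A0 ha
    have ha1 : a ^ (2 * kA K) = 1 := by
      have := pow_card_eq_one' (x := (⟨a, ha⟩ : S.A0))
      rw [S.card_A0 hK] at this
      exact congrArg Subtype.val this
    rcases hca with h | h
    · rw [h]; exact ha1
    · rw [h, hcomm.mul_pow, ha1, mul_one, pow_mul, sq, t_mul_t, one_pow]

include hK in
lemma order_XX' (hq : 3 < Fintype.card K) {k : ℕ} (x : S.XX k) :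
    orderOf x ∣ 6 ∨ orderOf x ∣ 9 ∨ orderOf x ∣ Fintype.card K - 1 ∨ orderOf x ∣ (Fintype.card K + 1) / 2 := by
  rcases S.order_XX x with h | h | h
  · rw [h, ← Subgroup.orderOf_coe]
    exact S.order_cent hK hq (Subgroup.mem_centralizer_singleton_iff.1 x.right.2).symm
  · exact Or.inl h
  · exact Or.inr (Or.inl h)

include S hK in
theorem mu_group (hq : 26 < Fintype.card K) : ∃ (H : Type) (_ : Group H) (_ : Fintype H), (∃ P : Subgroup H, P.Normal ∧ P ≠ ⊥ ∧ IsPGroup 3 ↥P) ∧
      {n : ℕ | n ∈ Set.range (orderOf : H → ℕ) ∧ ∀ m ∈ Set.range (orderOf : H → ℕ), n ∣ m → m = n} = ({6, 9, Fintype.card K - 1, (Fintype.card K + 1) / 2} : Set ℕ) := by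
  classical
  have hfin := S.finite_R
  have : Finite (S.XX 1) := Finite.of_equiv _ (SemidirectProduct.equivProd (φ := S.actHom 1)).symm
  obtain ⟨H, hG, hF, ⟨e⟩⟩ := exists_type_zero (S.XX 1)
  have hrange : Set.range (orderOf : H → ℕ) = {d | d ∣ 6 ∨ d ∣ 9 ∨ d ∣ Fintype.card K - 1 ∨ d ∣ (Fintype.card K + 1) / 2} := by
    ext d
    simp only [Set.mem_range]
    constructor
    · rintro ⟨x, rfl⟩
      rw [← e.orderOf_eq]
      exact S.order_XX' hK (by omega) _
    · intro hd
      obtain ⟨x, hx⟩ := S.XX_sup hK (k := 1) (by norm_num) hd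
      exact ⟨e.symm x, by rw [e.symm.orderOf_eq, hx]⟩
  refine ⟨H, hG, hF, ⟨(SemidirectProduct.inl : Vk K 1 →* S.XX 1).range.comap e.toMonoidHom, ?_, ?_, ?_⟩, ?_⟩
  · have : ((SemidirectProduct.inl : Vk K 1 →* S.XX 1).range).Normal := by
      rw [SemidirectProduct.range_inl_eq_ker_rightHom]
      infer_instance
    infer_instance
  · intro h
    have h1 : ∃ v : Vk K 1, v ≠ 1 := by
      refine ⟨Multiplicative.ofAdd (fun _ => 1), ?_⟩
      intro h2
      have h3 := congrFun (congrArg Multiplicative.toAdd h2) 0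
      have h4 : (1 : Matrix (Fin 2) (Fin 2) K) = 0 := h3
      exact one_ne_zero h4
    obtain ⟨v, hv⟩ := h1
    have h2 : e.symm (SemidirectProduct.inl v) ∈ (SemidirectProduct.inl : Vk K 1 →* S.XX 1).range.comap e.toMonoidHom :=
      ⟨v, by
        change _ = e (e.symm _)
        rw [e.apply_symm_apply]⟩
    rw [h, Subgroup.mem_bot] at h2
    apply hv
    have h3 : (SemidirectProduct.inl v : S.XX 1) = 1 := by
      rw [← e.apply_symm_apply (SemidirectProduct.inl v), h2, map_one]
    exact SemidirectProduct.inl_injective (h3.trans (map_one _).symm)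
  · rintro ⟨x, v, hv⟩
    refine ⟨1, Subtype.ext ?_⟩
    change x ^ 3 ^ 1 = 1
    apply e.injective
    have hv' : e x = SemidirectProduct.inl v := hv.symm
    rw [map_pow, hv', ← map_pow, pow_one, cube_V τ, map_one, map_one]
  · rw [hrange]
    have hA := four_kA hK
    have hA1 := kA_odd hK
    have hH := two_kH hK
    have c6H := cop_kH_6 hK
    have c6A := cop_kA_6 hK
    have cHA := cop_kH_kA hK
    have c3 : (Fintype.card K + 1) / 2 = 2 * kA K := by omega
    have c4 : Fintype.card K - 1 = 2 * kH K := by omega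
    rw [c3]
    rw [c4]
    have n3H : ¬ 3 ∣ 2 * kH K := by
      intro h
      have h1 : Nat.Coprime 3 (2 * kH K) := Nat.Coprime.mul_right (by norm_num) (Nat.Coprime.coprime_dvd_left (by norm_num) c6H)
      exact absurd ((Nat.Prime.coprime_iff_not_dvd Nat.prime_three).1 h1) (not_not.2 h)
    have n3A : ¬ 3 ∣ 2 * kA K := by
      intro h
      have h1 : Nat.Coprime 3 (2 * kA K) := Nat.Coprime.mul_right (by norm_num) (Nat.Coprime.coprime_dvd_left (by norm_num) c6A)
      exact absurd ((Nat.Prime.coprime_iff_not_dvd Nat.prime_three).1 h1) (not_not.2 h)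
    have nAH : ¬ 2 * kA K ∣ 2 * kH K := by
      intro h
      have h1 : kA K ∣ 2 * kH K := (Dvd.intro_left _ rfl).trans h
      have h2 : kA K ∣ 1 := by
        rw [← Nat.Coprime.gcd_eq_one cHA]
        exact Nat.dvd_gcd (by rw [c4]; exact h1) dvd_rfl
      have := Nat.dvd_one.1 h2
      omega
    have nHA : ¬ 2 * kH K ∣ 2 * kA K := by
      intro h
      have := Nat.le_of_dvd (by omega) h
      omega
    have le : ∀ {a b : ℕ}, 0 < b → a ∣ b → a ≤ b := fun hb h => Nat.le_of_dvd hb h
    ext n
    simp only [Set.mem_ofPred_eq, Set.mem_insert_iff, Set.mem_singleton_iff]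
    constructor
    · rintro ⟨h1, h2⟩
      rcases h1 with h | h | h | h
      · left; exact (h2 6 (Or.inl dvd_rfl) h).symm
      · right; left; exact (h2 9 (Or.inr (Or.inl dvd_rfl)) h).symm
      · right; right; left; exact (h2 _ (Or.inr (Or.inr (Or.inl dvd_rfl))) h).symm
      · right; right; right; exact (h2 _ (Or.inr (Or.inr (Or.inr dvd_rfl))) h).symm
    · rintro (rfl | rfl | rfl | rfl)
      · refine ⟨Or.inl dvd_rfl, ?_⟩
        rintro l (h | h | h | h) hd
        · exact Nat.dvd_antisymm h hd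
        · exact absurd (hd.trans h) (by norm_num)
        · exact absurd ((show 3 ∣ 6 by norm_num).trans (hd.trans h)) n3H
        · exact absurd ((show 3 ∣ 6 by norm_num).trans (hd.trans h)) n3A
      · refine ⟨Or.inr (Or.inl dvd_rfl), ?_⟩
        rintro l (h | h | h | h) hd
        · exact absurd (hd.trans h) (by norm_num)
        · exact Nat.dvd_antisymm h hd
        · exact absurd ((show 3 ∣ 9 by norm_num).trans (hd.trans h)) n3H
        · exact absurd ((show 3 ∣ 9 by norm_num).trans (hd.trans h)) n3A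
      · refine ⟨Or.inr (Or.inr (Or.inl dvd_rfl)), ?_⟩
        rintro l (h | h | h | h) hd
        · have := le (by norm_num) (hd.trans h)
          omega
        · have := le (by norm_num) (hd.trans h)
          omega
        · exact Nat.dvd_antisymm h hd
        · exact absurd (hd.trans h) nHA
      · refine ⟨Or.inr (Or.inr (Or.inr dvd_rfl)), ?_⟩
        rintro l (h | h | h | h) hd
        · have := le (by norm_num) (hd.trans h)
          omega
        · have := le (by norm_num) (hd.trans h)
          omega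
        · exact absurd (hd.trans h) nAH
        · exact Nat.dvd_antisymm h hd

end RS

/-- the group with given maximal element orders -/
theorem exists_mu (α : ℕ) (hα : 3 ≤ α) (hodd : Odd α) :
    ∃ (H : Type) (_ : Group H) (_ : Fintype H), (∃ P : Subgroup H, P.Normal ∧ P ≠ ⊥ ∧ IsPGroup 3 ↥P) ∧
      {n : ℕ | n ∈ Set.range (orderOf : H → ℕ) ∧ ∀ m ∈ Set.range (orderOf : H → ℕ), n ∣ m → m = n} = ({6, 9, 3 ^ α - 1, (3 ^ α + 1) / 2} : Set ℕ) := by
  obtain ⟨m, rfl⟩ := hodd
  have := Fact.mk Nat.prime_three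
  have : Fintype (GaloisField 3 (2 * m + 1)) := Fintype.ofFinite _
  have hK : Fintype.card (GaloisField 3 (2 * m + 1)) = 3 ^ (2 * m + 1) := by
    rw [← Nat.card_eq_fintype_card]
    exact GaloisField.card 3 (2 * m + 1) (by omega)
  have hq : 26 < Fintype.card (GaloisField 3 (2 * m + 1)) := by
    rw [hK]
    calc 26 < 3 ^ 3 := by norm_num
      _ ≤ 3 ^ (2 * m + 1) := Nat.pow_le_pow_right (by norm_num) hα
  rw [← hK]
  exact (rs hK).mu_group hK hq

end Cfsg.Agent.Ree
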